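import Mathlib
import Cfsg.Agent.Lib.E7M.RootB

/-!
# Root involutions in proper overgroups of a subgroup which determines the intersection with `Q`
-/

set_option autoImplicit false

namespace CfsgLib.E7M

open Module

/-- proper overgroups -/
def Ov (H M : Subgroup Γ) : Prop := H ≤ M ∧ M ≤ grp ∧ ¬ grp ≤ M

/-- no proper subgroup contains `H` and a conjugate of `H'` -/
def Sep (H H' : Subgroup Γ) : Prop := ∀ M, Ov H M → ∀ g ∈ grp, (∀ h ∈ H', g * h * g⁻¹ ∈ M) → False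

/-- conjugate of a subgroup -/
irreducible_def cj (g : Γ) (M : Subgroup Γ) : Subgroup Γ := M.comap (MulAut.conj g).toMonoidHom

theorem mem_cj {g h : Γ} {M : Subgroup Γ} : h ∈ cj g M ↔ g * h * g⁻¹ ∈ M := by
  rw [cj_def, Subgroup.mem_comap, MulEquiv.coe_toMonoidHom, MulAut.conj_apply]

theorem Ov.cj {H H' M : Subgroup Γ} (o : Ov H M) {g : Γ} (hg : g ∈ grp) (h : ∀ h ∈ H', g * h * g⁻¹ ∈ M) :
    Ov H' (cj g M) := by
  refine ⟨fun a ha => mem_cj.2 (h a ha), fun a ha => ?_, fun h1 => o.2.2 fun a ha => ?_⟩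
  · have := mul_mem (mul_mem (inv_mem hg) (o.2.1 (mem_cj.1 ha))) hg
    rwa [show g⁻¹ * (g * a * g⁻¹) * g = a by group] at this
  · have := mem_cj.1 (h1 (mul_mem (mul_mem (inv_mem hg) ha) hg))
    rwa [show g * (g⁻¹ * a * g) * g⁻¹ = a by group] at this

theorem Sep.symm {H H' : Subgroup Γ} (s : Sep H H') : Sep H' H := fun M o g hg h =>
  s _ (o.cj hg h) g⁻¹ (inv_mem hg) fun a ha => mem_cj.2 (by
    rw [show g * (g⁻¹ * a * g⁻¹⁻¹) * g⁻¹ = a by group]; exact o.1 ha)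

/-- the class of `X` -/
def Cls (N : Subgroup Γ) (d : Γ) : Prop := ∃ n ∈ N, d = n * X * n⁻¹

theorem Cls.conj {N : Subgroup Γ} {d n : Γ} (hn : n ∈ N) (h : Cls N (n * d * n⁻¹)) : Cls N d := by
  obtain ⟨m, hm, e1⟩ := h
  exact ⟨n⁻¹ * m, mul_mem (inv_mem hn) hm, by rw [show d = n⁻¹ * (n * d * n⁻¹) * n by group, e1]; group⟩

theorem Cls.mono {N M : Subgroup Γ} (h : N ≤ M) {d : Γ} (c : Cls N d) : Cls M d :=
  c.imp fun _ a => ⟨h a.1, a.2⟩

/-- the image of `M ∩ Q` -/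
def im (M : Subgroup Γ) : Submodule F2 V where
  carrier := {v | ∃ u ∈ M, u ∈ Q ∧ φ u = v}
  zero_mem' := ⟨1, one_mem _, one_mem _, φ_one⟩
  add_mem' := by
    rintro _ _ ⟨u, h1, h2, rfl⟩ ⟨u', h3, h4, rfl⟩
    exact ⟨u * u', mul_mem h1 h3, mul_mem h2 h4, φ_mul h2 h4⟩
  smul_mem' := by
    intro c v h
    rcases f2 c with rfl | rfl
    · exact ⟨1, one_mem _, one_mem _, φ_one.trans (zero_smul _ _).symm⟩
    · rwa [one_smul]

theorem mem_of_im {M : Subgroup Γ} (hX : X ∈ M) {u : Γ} (hu : u ∈ Q) (h : φ u ∈ im M) : u ∈ M := by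
  obtain ⟨u', h1, h2, h3⟩ := h
  rcases φ_ker (mul_mem (inv_mem h2) hu) (by rw [φ_mul (inv_mem h2) hu, φ_inv h2, h3, two]) with h4 | h4
  · rwa [← inv_mul_eq_one.1 h4]
  · rw [show u = u' * (u'⁻¹ * u) by group, h4]; exact mul_mem h1 hX

/-- the stabilizer of a set of vectors -/
def stabS (D : Set V) : Subgroup Γ where
  carrier := {g | ∀ v ∈ D, act g v ∈ D}
  one_mem' := fun v h => by rwa [act_one]
  mul_mem' := fun ha hb v h => by rw [act_mul]; exact ha _ (hb v h)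
  inv_mem' := by
    intro g hg
    obtain ⟨n, hn⟩ := mem_powers_iff_mem_zpowers.2 (inv_mem (Subgroup.mem_zpowers g))
    have key : ∀ n : ℕ, ∀ v ∈ D, act (g ^ n) v ∈ D := fun n => by
      induction n with
      | zero => exact fun v h => by rwa [pow_zero, act_one]
      | succ n ih => exact fun v h => by rw [pow_succ, act_mul]; exact ih _ (hg v h)
    rw [← hn]
    exact key n

/-- the vectors of the class of `X` -/
def DD (N : Subgroup Γ) : Set V := {v | ∃ n ∈ N, v = act n eT}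

theorem le_stab_DD (N : Subgroup Γ) : N ≤ stabS (DD N) := by
  rintro m hm _ ⟨n, hn, rfl⟩
  exact ⟨m * n, mul_mem hm hn, (act_mul _ _ _).symm⟩

structure Good (N H : Subgroup Γ) (W : Submodule F2 V) : Prop where
  le : N ≤ H
  hg : H ≤ grp
  hX : X ∈ N
  hY : Y ∈ N
  loc : ∀ M, Ov H M → im M ≤ W
  sur : W ≤ im N
  nd : ∀ v ∈ W, v ≠ 0 → ∃ u ∈ N, u ∈ Q ∧ co 125 (act u v) = 1

structure Idn (N : Subgroup Γ) (W : Submodule F2 V) : Prop where
  gen : ∀ M : Subgroup Γ, X ∈ M → Y ∈ M → (∀ u ∈ N, u ∈ Q → u ∈ M) → N ≤ M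
  fpf : ∀ v, p1 v = v → (∀ ρ ∈ N, act ρ eT = eT → v + p1 (act ρ v) ∈ W) → v ∈ W

/-- the conjugates of `X` have a small common fixed space -/
def Small (N : Subgroup Γ) : Prop :=
  ∃ W : Submodule F2 V, finrank F2 W ≤ 13 ∧ ∀ v, (∀ n ∈ N, act (n * X * n⁻¹) v = v) → v ∈ W

/-- the class of `X` spans a large space -/
def Orb (N : Subgroup Γ) (k : ℕ) : Prop :=
  ∀ (g : Γ) (W : Submodule F2 V), (∀ n ∈ N, act g (act n eT) ∈ W) → k ≤ finrank F2 W

theorem Small.mono {N H : Subgroup Γ} (s : Small N) (h : N ≤ H) : Small H :=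
  s.imp fun _ a => ⟨a.1, fun v hv => a.2 v fun n hn => hv n (h hn)⟩

theorem Orb.mono {N H : Subgroup Γ} {k l : ℕ} (s : Orb N k) (h : N ≤ H) (hl : l ≤ k) : Orb H l :=
  fun g W hW => hl.trans (s g W fun n hn => hW n (h hn))

section
variable {N H M : Subgroup Γ} {W : Submodule F2 V} (G : Good N H W) (o : Ov H M)
include G

theorem Good.p1 {v : V} (h : v ∈ W) : p1 v = v := by
  obtain ⟨u, -, -, rfl⟩ := G.sur h
  exact p1_φ u

theorem Good.memN' {u : Γ} (hu : u ∈ Q) (h : φ u ∈ W) : u ∈ N := mem_of_im G.hX hu (G.sur h)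

theorem Good.nN : X * Y * X ∈ N := mul_mem (mul_mem G.hX G.hY) G.hX

include o

theorem Good.NM : N ≤ M := G.le.trans o.1

theorem Good.memN {u : Γ} (hM : u ∈ M) (hu : u ∈ Q) : u ∈ N := G.memN' hu (G.loc M o ⟨u, hM, hu, rfl⟩)

theorem Good.ND {d : Γ} {v : V} (a : Rt d v) (hM : d ∈ M) (hQ : d ∈ Q) : Cls N d := by
  obtain ⟨h1, h2⟩ := a.inQ hQ
  have hN := G.memN o hM hQ
  by_cases h0 : φ d = 0
  · exact ⟨1, one_mem _, by rw [(φ_ker hQ h0).resolve_left a.ne_one]; group⟩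
  obtain ⟨u, hu, hu', h3⟩ : ∃ u ∈ N, u ∈ Q ∧ co 125 (act u v) = 1 := by
    rcases f2 (co 125 v) with h | h
    · have h4 : v = φ d := by rw [← h1, g1_eq, h, zero_smul, add_zero, h2]
      rw [h4]
      exact G.nd _ (G.loc M o ⟨d, hM, hQ, rfl⟩) h0
    · exact ⟨1, one_mem _, one_mem _, by rwa [act_one]⟩
  have hn := mul_mem G.nN hu
  have := (a.conj (G.hg (G.le hn))).braid (by rw [act_mul, co_n ((cf (Q_le hu')).f1 _ h1), h3])
  exact Cls.conj hn ⟨_, mul_mem G.hX (mul_mem (mul_mem hn hN) (inv_mem hn)), this⟩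

theorem Good.nopp {d : Γ} {v : V} (a : Rt d v) (hM : d ∈ M) (h : co 0 v = 0) : Cls N d ∨ X * d = d * X := by
  refine (a.nopp h).symm.imp_left fun ⟨⟨w, b⟩, h1, h2⟩ => ?_
  have hX := G.NM o G.hX
  obtain ⟨n, hn, h3⟩ := G.ND o b (mul_mem (mul_mem (mul_mem hX hM) hX) hM) h1
  have hn' := G.hg (G.le hn)
  refine Cls.conj (inv_mem hn) (G.ND o (a.conj (inv_mem hn')) ?_ ?_)
  · exact mul_mem (mul_mem (inv_mem (G.NM o hn)) hM) (inv_mem (inv_mem (G.NM o hn)))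
  · rw [inv_inv]; exact h2 n hn' h3

theorem Good.lemA {d : Γ} {v : V} (a : Rt d v) (hM : d ∈ M) (h : ¬ Cls M d) {m : Γ} (hm : m ∈ M) :
    act (m * X * m⁻¹) v = v := by
  have b := a.conj (inv_mem (o.2.1 hm))
  have hd := mul_mem (mul_mem (inv_mem hm) hM) (inv_mem (inv_mem hm))
  have h1 : ¬ Cls M (m⁻¹ * d * m⁻¹⁻¹) := fun c => h (c.conj (inv_mem hm))
  have h2 : act X (act m⁻¹ v) = act m⁻¹ v := by
    rcases f2 (co 0 (act m⁻¹ v)) with h0 | h0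
    · exact (b.fix_iff X_grp).2 ((G.nopp o b hd h0).resolve_left fun c => h1 (c.mono (G.NM o)))
    · exact absurd ⟨_, mul_mem (G.NM o G.hX) hd, b.braid h0⟩ h1
  rw [act_mul, act_mul, h2, act_inv']

theorem Good.lemA' (I : Idn N W) {d : Γ} {v : V} (a : Rt d v) (hM : d ∈ M) : Cls N d ∨ X * d = d * X := by
  rcases f2 (co 0 v) with h0 | h0
  · exact G.nopp o a hM h0
  obtain ⟨q, hq, rfl, -⟩ := a.opp h0
  have hX := G.NM o G.hX
  have h1 : N ≤ cj q M := by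
    refine I.gen _ (mem_cj.2 ?_) (mem_cj.2 hM) fun u hu hu' => mem_cj.2 ?_
    · rwa [(cf (Q_le hq)).x, mul_inv_cancel_right]
    · refine mem_of_im hX (conj_Q (Q_le hq) hu') ⟨u, G.NM o hu, hu', ?_⟩
      rw [φ_conj (Q_le hq) hu', qf hq _ (g1_φ _), p1_φ]
  have h2 : q ∈ N := G.memN' hq (I.fpf _ (p1_φ q) fun ρ hρ h => by
    have hc := C_of_fix (G.hg (G.le hρ)) h
    have h3 := conj_Q hc (inv_mem hq)
    rw [← φ_inv hq, ← φ_conj hc (inv_mem hq), φ_inv hq, ← φ_mul hq h3]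
    refine G.loc M o ⟨_, ?_, mul_mem hq h3, rfl⟩
    rw [show q * (ρ * q⁻¹ * ρ⁻¹) = q * ρ * q⁻¹ * ρ⁻¹ by group]
    exact mul_mem (mem_cj.1 (h1 hρ)) (inv_mem (G.NM o hρ)))
  exact Or.inl ⟨_, mul_mem h2 G.nN, by
    rw [show q * (X * Y * X) * X * (q * (X * Y * X))⁻¹ = q * (X * Y * X * X * (X * Y * X)⁻¹) * q⁻¹ by group, n_X]⟩

theorem Good.norm (I : Idn N W) {m : Γ} (hm : m ∈ M) (h : Cls N (m * X * m⁻¹)) : m ∈ stabS (DD N) := by
  obtain ⟨n, hn, h⟩ := h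
  have hc : n⁻¹ * m ∈ M := mul_mem (inv_mem (G.NM o hn)) hm
  have hC : n⁻¹ * m ∈ C := C_of_comm (o.2.1 hc) (by
    rw [show n⁻¹ * m * X = n⁻¹ * (m * X * m⁻¹) * m by group, h]; group)
  rw [show m = n * (n⁻¹ * m) by group]
  refine mul_mem (le_stab_DD N hn) ?_
  generalize n⁻¹ * m = c at hc hC
  have h1 : N ≤ cj c N := by
    refine I.gen _ (mem_cj.2 ?_) (mem_cj.2 ?_) fun u hu hu' => mem_cj.2 (G.memN o ?_ (conj_Q hC hu'))
    · rw [(cf hC).x, mul_inv_cancel_right]; exact G.hX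
    · rcases G.lemA' o I (rt_Y.conj (C_le hC)) (mul_mem (mul_mem hc (G.NM o G.hY)) (inv_mem hc)) with ⟨k, hk, h2⟩ | h2
      · rw [h2]; exact mul_mem (mul_mem hk G.hX) (inv_mem hk)
      · have := co_of_comm (rt_Y.conj (C_le hC)) h2
        rw [(cf hC).o, co_e0] at this
        exact absurd this one_ne_zero
    · exact mul_mem (mul_mem hc (G.NM o hu)) (inv_mem hc)
  rintro _ ⟨k, hk, rfl⟩
  exact ⟨_, mem_cj.1 (h1 hk), by rw [act_mul, act_mul, (cf (inv_mem hC)).t]⟩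

theorem Good.comm (I : Idn N W) {m : Γ} (hm : m ∈ M) (h : m ∉ stabS (DD N)) {n n' : Γ} (hn : n ∈ N) (hn' : n' ∈ N) :
    act X (act (n' * m * n) eT) = act (n' * m * n) eT := by
  have h1 : n' * m * n ∈ M := mul_mem (mul_mem (G.NM o hn') hm) (G.NM o hn)
  have b := rt_of (o.2.1 h1)
  rcases G.lemA' o I b (mul_mem (mul_mem h1 (G.NM o G.hX)) (inv_mem h1)) with c | c
  · have := mul_mem (mul_mem (inv_mem (le_stab_DD N hn')) (G.norm o I h1 c)) (inv_mem (le_stab_DD N hn))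
    rw [show n'⁻¹ * (n' * m * n) * n⁻¹ = m by group] at this
    exact absurd this h
  · exact (b.fix_iff X_grp).2 c

theorem Good.le_stab (I : Idn N W) (s : Small N) (b : Orb N 14) : M ≤ stabS (DD N) := fun m hm => by
  by_contra h
  obtain ⟨F, h1, h2⟩ := s
  have := b m F fun n hn => h2 _ fun n' hn' => by
    have := G.comm o I hm h hn (inv_mem hn')
    rw [act_mul, act_mul] at this
    rw [act_mul, act_mul, this, act_inv']
  omega

theorem Good.lemB {g : Γ} (hg : g ∈ grp) (h : ∀ u ∈ Q, g * u * g⁻¹ ∈ M) : False := by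
  have hXM := G.NM o G.hX
  have hYM := G.NM o G.hY
  have h1 : ¬ Cls M (g * X * g⁻¹) := by
    rintro ⟨m, hm, e1⟩
    have hC : m⁻¹ * g ∈ C := C_of_comm (mul_mem (inv_mem (o.2.1 hm)) hg) (by
      rw [show m⁻¹ * g * X = m⁻¹ * (g * X * g⁻¹) * g by group, e1]; group)
    refine o.2.2 (top_of_Q (fun u hu => ?_) hYM)
    have := mul_mem (mul_mem (inv_mem hm) (h _ (conj_Q' hC hu))) hm
    rwa [show m⁻¹ * (g * ((m⁻¹ * g)⁻¹ * u * (m⁻¹ * g)) * g⁻¹) * m = u by group] at this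
  have hn := G.NM o G.nN
  have h2 : ∀ s, 93 ≤ s → s < 126 → ¬ Cls M (g * x s * g⁻¹) := by
    rintro s a1 a2 ⟨m, hm, e1⟩
    have a3 := G.lemA o (rt_of hg) (h X X_Q) h1 (mul_mem hm hn)
    rw [show m * (X * Y * X) * X * (m * (X * Y * X))⁻¹ = m * (X * Y * X * X * (X * Y * X)⁻¹) * m⁻¹ by group, n_X] at a3
    have hC : g⁻¹ * (m * Y * m⁻¹) * g ∈ C := C_of_fix
      (mul_mem (mul_mem (inv_mem hg) (o.2.1 (mul_mem (mul_mem hm hYM) (inv_mem hm)))) hg)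
      (by rw [act_mul, act_mul, a3, act_inv])
    have a4 := Q_pow (mul_mem (x_gen (p := (93 ≤ ·)) a2 a1) (conj_Q hC (x_gen a2 a1)))
    have a0 : x s * (g⁻¹ * (m * Y * m⁻¹) * g * x s * (g⁻¹ * (m * Y * m⁻¹) * g)⁻¹) =
        g⁻¹ * m * (X * (Y * X * Y⁻¹)) * (g⁻¹ * m)⁻¹ := by
      rw [show x s = g⁻¹ * (g * x s * g⁻¹) * g by group, e1]; group
    have a5 : (X * (Y * X * Y⁻¹)) ^ 4 = 1 := by
      rw [a0] at a4
      generalize X * (Y * X * Y⁻¹) = a at a4 ⊢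
      generalize g⁻¹ * m = b at a4
      rw [show a ^ 4 = b⁻¹ * (b * a * b⁻¹ * (b * a * b⁻¹) * (b * a * b⁻¹ * (b * a * b⁻¹))) * b by
        simp only [pow_succ, pow_zero, one_mul, mul_assoc, inv_mul_cancel_left, inv_mul_cancel, mul_one], a4]
      group
    have a6 : X * (Y * X * Y⁻¹) = Y * X := by
      rw [Y_inv, ← braid, ← mul_assoc, ← mul_assoc, XX, one_mul]
    have a7 : (Y * X) ^ 3 = 1 := by
      rw [show (Y * X) ^ 3 = Y * X * Y * (X * Y * X) by simp only [pow_succ, pow_zero, one_mul, mul_assoc], ← braid, nn]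
    rw [a6, pow_succ, a7, one_mul] at a5
    exact XY_ne (by rw [a5, ← X_inv, ← Y_inv, ← mul_inv_rev, a5, inv_one])
  have h3 : ∀ m ∈ M, g⁻¹ * (m * X * m⁻¹) * g⁻¹⁻¹ = X := fun m hm => by
    refine ((rt_of (o.2.1 hm)).conj (inv_mem hg)).centQ fun s a1 a2 => ?_
    have b := (rt_x a2).conj hg
    have := (b.fix_iff (rt_of (o.2.1 hm)).mem).1 (G.lemA o b (h _ (x_gen a2 a1)) (h2 s a1 a2) hm)
    rw [show x s * (g⁻¹ * (m * X * m⁻¹) * g⁻¹⁻¹) = g⁻¹ * (g * x s * g⁻¹ * (m * X * m⁻¹)) * g by group, ← this]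
    group
  have h4 := (h3 _ hn).trans (h3 1 (one_mem _)).symm
  rw [n_X, mul_left_inj, mul_right_inj, one_mul, inv_one, mul_one] at h4
  exact XY_ne (by rw [h4])

end

theorem sep_Q {N H P : Subgroup Γ} {W : Submodule F2 V} (G : Good N H W) (hP : Q ≤ P) : Sep H P :=
  fun _ o _ hg h => G.lemB o hg fun u hu => h u (hP hu)

/-- conjugate subspaces of `L₁` -/
def Cj (W W' : Submodule F2 V) : Prop :=
  ∃ c ∈ C, (∀ v ∈ W', p1 (act c v) ∈ W) ∧ ∀ v ∈ W, p1 (act c⁻¹ v) ∈ W'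

theorem Cj.symm {W W' : Submodule F2 V} (h : Cj W W') : Cj W' W := by
  obtain ⟨c, hc, h1, h2⟩ := h
  exact ⟨c⁻¹, inv_mem hc, h2, by rwa [inv_inv]⟩

theorem sep_good {N H N' H' : Subgroup Γ} {W W' : Submodule F2 V} (G : Good N H W) (G' : Good N' H' W')
    (s : Small H) (b : Orb H' 14) (h : ¬ Cj W W') : Sep H H' := fun M o g hg hM => by
  by_cases c : Cls M (g * X * g⁻¹)
  · obtain ⟨m, hm, e1⟩ := c
    have hC : m⁻¹ * g ∈ C := C_of_comm (mul_mem (inv_mem (o.2.1 hm)) hg) (by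
      rw [show m⁻¹ * g * X = m⁻¹ * (g * X * g⁻¹) * g by group, e1]; group)
    have h1 : ∀ a ∈ H', m⁻¹ * g * a * (m⁻¹ * g)⁻¹ ∈ M := fun a ha => by
      have := mul_mem (mul_mem (inv_mem hm) (hM a ha)) hm
      rwa [show m⁻¹ * (g * a * g⁻¹) * m = m⁻¹ * g * a * (m⁻¹ * g)⁻¹ by group] at this
    refine h ⟨_, hC, fun v hv => ?_, fun v hv => ?_⟩
    · obtain ⟨u, hu, hu', rfl⟩ := G'.sur hv
      exact G.loc M o ⟨_, h1 u (G'.le hu), conj_Q hC hu', φ_conj hC hu'⟩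
    · obtain ⟨u, hu, hu', rfl⟩ := G.sur hv
      refine G'.loc _ (o.cj (C_le hC) h1) ⟨_, mem_cj.2 ?_, conj_Q (inv_mem hC) hu', φ_conj (inv_mem hC) hu'⟩
      rw [show m⁻¹ * g * ((m⁻¹ * g)⁻¹ * u * (m⁻¹ * g)⁻¹⁻¹) * (m⁻¹ * g)⁻¹ = u by group]
      exact G.NM o hu
  · obtain ⟨F, h1, h2⟩ := s
    have := b g F fun n hn => h2 _ fun n' hn' => by
      have hgn := mul_mem hg (G'.hg hn)
      rw [← act_mul g n]
      refine G.lemA o (rt_of hgn) ?_ (fun c' => c (Cls.conj (hM n hn) ?_)) (o.1 hn')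
      · rw [show g * n * X * (g * n)⁻¹ = g * (n * X * n⁻¹) * g⁻¹ by group]
        exact hM _ (mul_mem (mul_mem hn (G'.le G'.hX)) (inv_mem hn))
      · rwa [show g * n * g⁻¹ * (g * X * g⁻¹) * (g * n * g⁻¹)⁻¹ = g * n * X * (g * n)⁻¹ by group]
    omega

/-- singular vectors -/
def Tv (v : V) : Prop := ∃ u ∈ Q, φ u = v ∧ T u

theorem Tv.conj {v : V} (h : Tv v) {c : Γ} (hc : c ∈ C) : Tv (p1 (act c v)) := by
  obtain ⟨u, hu, rfl, h⟩ := h
  exact ⟨_, conj_Q hc hu, φ_conj hc hu, T_conj hc hu h⟩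

theorem p1_inv {c : Γ} (hc : c ∈ C) {v : V} (h : p1 v = v) : p1 (act c⁻¹ (p1 (act c v))) = v := by
  rw [p1_act (inv_mem hc) ((cf hc).f1 v (by rw [← h, g1_p1])), act_inv, h]

theorem Cj.le {W W' : Submodule F2 V} (h : Cj W W') (h' : ∀ v ∈ W', p1 v = v) :
    finrank F2 W' ≤ finrank F2 W ∧ {v | v ∈ W' ∧ Tv v}.ncard ≤ {v | v ∈ W ∧ Tv v}.ncard := by
  obtain ⟨c, hc, h1, -⟩ := h
  have inj : ∀ v ∈ W', ∀ w ∈ W', p1 (act c v) = p1 (act c w) → v = w := fun v hv w hw e1 => by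
    rw [← p1_inv hc (h' v hv), e1, p1_inv hc (h' w hw)]
  exact ⟨LinearMap.finrank_le_finrank_of_injective (f := (p1 ∘ₗ act c).restrict h1) fun v w e1 =>
    Subtype.ext (inj _ v.2 _ w.2 (congrArg Subtype.val e1)),
    Set.ncard_le_ncard_of_injOn (fun v => p1 (act c v)) (fun v hv => ⟨h1 v hv.1, hv.2.conj hc⟩)
      (fun v hv w hw => inj v hv.1 w hw.1)⟩

/-- the vectors of `L₁` fixed by the preimage of `W` -/
def Perp (W : Submodule F2 V) (w : V) : Prop := p1 w = w ∧ ∀ u ∈ Q, φ u ∈ W → act u w = w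

theorem Cj.perp {W W' : Submodule F2 V} (h : Cj W W') {w : V} (h1 : Perp W' w) (h2 : Tv w) (h3 : w ≠ 0) :
    ∃ w, Perp W w ∧ Tv w ∧ w ≠ 0 := by
  obtain ⟨c, hc, -, h4⟩ := h
  refine ⟨p1 (act c w), ⟨p1_p1 _, fun u hu hW => ?_⟩, h2.conj hc, fun h5 => h3 ?_⟩
  · have h5 := h1.2 _ (conj_Q (inv_mem hc) hu) (by rw [φ_conj (inv_mem hc) hu]; exact h4 _ hW)
    have h6 : act u (act c w) = act c w := by
      rw [inv_inv, act_mul, act_mul] at h5
      exact act_cancel (g := c⁻¹) (by rw [h5, act_inv])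
    have h7 := (cf hc).f1 w (by rw [← h1.1, g1_p1])
    rw [g1_eq] at h7
    rw [← h7, map_add, map_smul, (cf (Q_le hu)).t] at h6
    exact add_right_cancel h6
  · rw [← p1_inv hc h1.1, h5, map_zero, map_zero]

end CfsgLib.E7M
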