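import Mathlib
import Cfsg.Agent.Lib.E7M.Good

/-!
# Subspaces in echelon form, words in generators, and a certificate of irreducibility
-/

set_option autoImplicit false

namespace CfsgLib.E7M

open Module CfsgLib.Comput

/-- sparse matrices -/
abbrev SM := List (ℕ × ℕ)

/-- the subspace with echelon basis `L` -/
def Sub (L : SM) : Submodule F2 V := LinearMap.ker (1 + sL L)

theorem mem_Sub {L : SM} {v : V} : v ∈ Sub L ↔ sL L v = v := by
  rw [Sub, LinearMap.mem_ker, LinearMap.add_apply, Module.End.one_apply]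
  exact ⟨fun h => (eq_of_add h).symm, fun h => by rw [h, two]⟩

/-- a test for all members of a list -/
noncomputable def aL {α : Type} (f : α → Bool) (l : List α) : Bool := List.rec true (fun a _ ih => Bool.rec false ih (f a)) l

theorem aL_spec {α : Type} {f : α → Bool} {l : List α} (h : aL f l = true) : ∀ a ∈ l, f a = true := by
  induction l with
  | nil => simp
  | cons b l ih =>
    have h' : Bool.rec false (aL f l) (f b) = true := h
    cases hb : f b <;> rw [hb] at h'
    · exact absurd h' (by simp)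
    · exact List.forall_mem_cons.2 ⟨hb, ih h'⟩

noncomputable def mp {α β : Type} (f : α → β) (l : List α) : List β := List.rec [] (fun a _ ih => f a :: ih) l

theorem mp_eq {α β : Type} (f : α → β) (l : List α) : mp f l = l.map f := by
  induction l with
  | nil => rfl
  | cons a l ih => exact congrArg (f a :: ·) ih

noncomputable def cols (L : SM) : List ℕ := mp Prod.snd L

theorem Sub_le {L : SM} {W : Submodule F2 V} (h : ∀ c ∈ cols L, dec c ∈ W) : Sub L ≤ W := fun v hv => by
  rw [← mem_Sub.1 hv]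
  exact sL_mem (fun p hp => h _ (by rw [cols, mp_eq]; exact List.mem_map_of_mem hp)) v

theorem on_Sub {a b : Ex} {L : SM} (h : eqOn a b (cols L) = true) {v : V} (hv : v ∈ Sub L) : den a v = den b v :=
  Sub_le (W := LinearMap.eqLocus (den a) (den b)) (fun _ hc => eqOn_sound h hc) hv

theorem finrank_Sub (L : SM) : finrank F2 (Sub L) ≤ lenL L := by
  rw [lenL_eq]
  exact (Submodule.finrank_mono (t := LinearMap.range (sL L)) fun v hv => ⟨v, mem_Sub.1 hv⟩).trans (finrank_sL L)

/-- `a` maps the subspace `L` into the subspace `L'` -/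
noncomputable def mapOK (L L' : SM) (a : Ex) : Bool := eqOn (.mul (.sp L') a) a (cols L)

theorem mapOK_sound {L L' : SM} {a : Ex} (h : mapOK L L' a = true) {v : V} (hv : v ∈ Sub L) : den a v ∈ Sub L' :=
  mem_Sub.2 (on_Sub h hv)

/-- the matrix with the given columns -/
noncomputable def up (l : List ℕ) : SM :=
  List.rec (motive := fun _ => ℕ → SM) (fun _ => []) (fun c _ ih i => (i, c) :: ih (Nat.succ i)) l 0

theorem up_mem {W : Submodule F2 V} {l : List ℕ} (h : ∀ c ∈ l, dec c ∈ W) (v : V) : sL (up l) v ∈ W := by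
  have key : ∀ i, ∀ p ∈ (List.rec (motive := fun _ => ℕ → SM) (fun _ => [])
      (fun c _ ih i => (i, c) :: ih (Nat.succ i)) l i : SM), p.2 ∈ l := by
    clear h
    induction l with
    | nil => exact fun _ _ h => absurd h List.not_mem_nil
    | cons c l ih =>
      intro i p hp
      rcases List.mem_cons.1 hp with rfl | hp
      exacts [List.mem_cons_self, List.mem_cons_of_mem _ (ih _ p hp)]
  exact sL_mem (fun p hp => h _ (key 0 p hp)) v

/-- the vectors `l` span a space of dimension at least `n` -/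
noncomputable def spanOK (n : ℕ) (l : List ℕ) (f : SM) : Bool :=
  Nat.ble n 133 && eqE (.sp (dg 0 n)) (.mul (.sp f) (.sp (up l)))

theorem spanOK_sound {n : ℕ} {l : List ℕ} {f : SM} (h : spanOK n l f = true) (g : Γ) {W : Submodule F2 V}
    (hW : ∀ c ∈ l, act g (dec c) ∈ W) : n ≤ finrank F2 W := by
  rw [spanOK, Bool.and_eq_true, Nat.ble_eq] at h
  refine le_finrank h.1 (f := sL f * act g⁻¹) (g := act g * sL (up l))
    (fun v => up_mem (W := W.comap (act g)) hW v) ((eqE_sound h.2).trans (LinearMap.ext fun v => ?_))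
  rw [den_mul, Module.End.mul_apply, Module.End.mul_apply, Module.End.mul_apply, act_inv]; rfl

/-- the pivots -/
noncomputable def dn (L : SM) : SM :=
  List.rec (motive := fun _ => ℕ → SM) (fun _ => []) (fun p _ ih i => (p.1, Nat.shiftLeft 1 i) :: ih (Nat.succ i)) L 0

noncomputable def dimOK (L : SM) (n : ℕ) : Bool := Nat.beq (lenL L) n && eqOn (.sp L) .one (cols L) && spanOK n (cols L) (dn L)

theorem dimOK_sound {L : SM} {n : ℕ} (h : dimOK L n = true) : finrank F2 (Sub L) = n := by
  simp only [dimOK, Bool.and_eq_true, Nat.beq_eq] at h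
  exact le_antisymm (h.1.1 ▸ finrank_Sub L)
    (spanOK_sound h.2 1 fun c hc => by rw [act_one]; exact mem_Sub.2 (eqOn_sound h.1.2 hc))

/-- the subgroup generated by words -/
def cl (gs : List (List ℕ)) : Subgroup Γ := Subgroup.closure {g | ∃ w ∈ gs, g = wd w}

theorem cl_le {gs : List (List ℕ)} {M : Subgroup Γ} (h : ∀ w ∈ gs, wd w ∈ M) : cl gs ≤ M := by
  rw [cl, Subgroup.closure_le]
  rintro _ ⟨w, hw, rfl⟩
  exact h w hw

theorem mem_cl {gs : List (List ℕ)} {w : List ℕ} (h : w ∈ gs) : wd w ∈ cl gs := Subgroup.subset_closure ⟨w, h, rfl⟩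

theorem cl_grp (gs : List (List ℕ)) : cl gs ≤ grp := cl_le fun _ _ => wd_grp _

noncomputable def ap (l m : List ℕ) : List ℕ := List.rec m (fun a _ ih => a :: ih) l

theorem wd_ap (l m : List ℕ) : wd (ap l m) = wd l * wd m := by
  induction l with
  | nil => exact (one_mul _).symm
  | cons a l ih => exact (wd_cons a _).trans (by rw [wd_cons, mul_assoc, ← ih]; rfl)

noncomputable def rv (l : List ℕ) : List ℕ :=
  List.rec (motive := fun _ => List ℕ → List ℕ) (fun m => m) (fun a _ ih m => ih (a :: m)) l []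

theorem wd_rv (l : List ℕ) : wd (rv l) = (wd l)⁻¹ := by
  have key : ∀ m, wd (List.rec (motive := fun _ => List ℕ → List ℕ) (fun m => m) (fun a _ ih m => ih (a :: m)) l m) =
      (wd l)⁻¹ * wd m := by
    induction l with
    | nil => exact fun m => by rw [show wd [] = 1 from rfl, inv_one, one_mul]
    | cons a l ih => exact fun m => (ih _).trans (by rw [wd_cons, wd_cons, mul_inv_rev, x_inv, mul_assoc])
  exact (key []).trans (mul_one _)

/-- a word in the generators as a word in root involutions -/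
noncomputable def flat (gs : List (List ℕ)) (h : List ℕ) : List ℕ := List.rec [] (fun j _ ih => ap (nth [] gs j) ih) h

theorem flat_mem (gs : List (List ℕ)) (h : List ℕ) : wd (flat gs h) ∈ cl gs := by
  induction h with
  | nil => exact one_mem _
  | cons j h ih =>
    rw [show flat gs (j :: h) = ap (nth [] gs j) (flat gs h) from rfl, wd_ap]
    refine mul_mem ?_ ih
    rcases nth_mem_or [] gs j with h1 | h1
    · exact mem_cl h1
    · rw [h1]; exact one_mem _

theorem cl_stab {gs : List (List ℕ)} {L : SM} (h : aL (fun w => mapOK L L (.w w)) gs = true) : cl gs ≤ stabS (Sub L) :=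
  cl_le fun w hw _ hv => mapOK_sound (aL_spec h w hw) hv

/-- the complementary projection -/
def NN (L : SM) : Ex := .add .one (.sp L)

theorem den_NN {L : SM} {v : V} : den (NN L) v = 0 ↔ v ∈ Sub L := Iff.rfl

theorem add_mem_Sub {L : SM} {v w : V} (h : den (NN L) v = den (NN L) w) : v + w ∈ Sub L :=
  den_NN.1 (by rw [map_add, h, two])

noncomputable def sm (l : List Ex) : Ex := List.rec (.sp []) (fun a _ ih => .add a ih) l

theorem sm_mem {W : Submodule F2 V} {l : List Ex} {v : V} (h : ∀ a ∈ l, den a v ∈ W) : den (sm l) v ∈ W := by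
  induction l with
  | nil => exact W.zero_mem
  | cons a l ih => exact W.add_mem (h a List.mem_cons_self) (ih fun b hb => h b (List.mem_cons_of_mem _ hb))

theorem sm_zero {l : List Ex} {v : V} (h : ∀ a ∈ l, den a v = 0) : den (sm l) v = 0 := sm_mem (W := ⊥) h

/-- a product of matrices from a list -/
noncomputable def prd (ms : List SM) (k : List ℕ) : Ex := List.rec .one (fun i _ ih => .mul (.sp (nth [] ms i)) ih) k

theorem prd_mem {W : Submodule F2 V} {ms : List SM} (h : ∀ m ∈ ms, ∀ v ∈ W, sL m v ∈ W) (k : List ℕ) {v : V}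
    (hv : v ∈ W) : den (prd ms k) v ∈ W := by
  induction k with
  | nil => exact hv
  | cons i k ih =>
    show sL (nth [] ms i) (den (prd ms k) v) ∈ W
    rcases nth_mem_or [] ms i with h1 | h1
    · exact h _ h1 _ ih
    · rw [h1]; exact W.zero_mem

theorem pol_mem {W : Submodule F2 V} {a : Ex} (h : ∀ v ∈ W, den a v ∈ W) (cs : List Bool) {v : V} (hv : v ∈ W) :
    den (.pol a cs) v ∈ W := by
  induction cs with
  | nil => exact W.zero_mem
  | cons c cs ih =>
    rw [den_pol, LinearMap.add_apply, Module.End.mul_apply]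
    refine W.add_mem ?_ (h _ ih)
    cases c
    exacts [W.zero_mem, hv]

/-- a certificate of irreducibility: an operator of rank one -/
structure RO where
  th : List (List ℕ)
  tm : SM
  cs : List Bool
  w0 : ℕ
  fr : SM
  seps : List (List ℕ × ℕ)
  sw : List (List ℕ)
  cf : SM

noncomputable def roOK (D L : SM) (ms : List SM) (c : RO) : Bool :=
  eqOn (.sp c.tm) (sm (mp (prd ms) c.th)) (cols D) &&
  eqOn (.mul (NN L) (.pol (.sp c.tm) c.cs)) (.mul (NN L) (.mul (.sp [(0, c.w0)]) (.sp c.fr))) (cols D) &&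
  eqOn (NN L) (sm (mp (fun p => .mul (.sp [(0, p.2)]) (.mul (.sp c.fr) (prd ms p.1))) c.seps)) (cols D) &&
  eqOn (.mul (NN L) (.mul (.sp (up (mp (fun k => vv (prd ms k) c.w0) c.sw))) (.sp c.cf))) (NN L) (cols D)

theorem roOK_sound {D L : SM} {ms : List SM} {c : RO} (h : roOK D L ms c = true) {W : Submodule F2 V}
    (hD : W ≤ Sub D) (hL : Sub L ≤ W) (hm : ∀ m ∈ ms, ∀ v ∈ W, sL m v ∈ W) : W ≤ Sub L ∨ Sub D ≤ W := by
  simp only [roOK, Bool.and_eq_true] at h
  obtain ⟨⟨⟨h1, h2⟩, h3⟩, h4⟩ := h
  by_cases h0 : dec c.w0 ∈ W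
  · refine Or.inr fun v hv => ?_
    have h5 := hL (add_mem_Sub ((den_mul _ _ v).symm.trans (on_Sub h4 hv)))
    refine (W.add_mem_iff_right (up_mem (fun a ha => ?_) _)).1 h5
    rw [mp_eq] at ha
    obtain ⟨k, -, rfl⟩ := List.mem_map.1 ha
    rw [dec_vv]; exact prd_mem hm k h0
  · have ht : ∀ v ∈ W, den (.sp c.tm) v ∈ W := fun v hv => by
      rw [on_Sub h1 (hD hv)]
      refine sm_mem fun a ha => ?_
      rw [mp_eq] at ha
      obtain ⟨k, -, rfl⟩ := List.mem_map.1 ha
      exact prd_mem hm k hv
    have hf : ∀ v ∈ W, co 0 (sL c.fr v) = 0 := fun v hv => (f2 _).resolve_right fun h5 => h0 <| by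
      have h6 := on_Sub h2 (hD hv)
      rw [den_mul, den_mul, den_mul, den_sp, den_sp, sL_one, Nat.zero_mod, h5, one_smul] at h6
      exact (W.add_mem_iff_right (pol_mem ht _ hv)).1 (hL (add_mem_Sub h6))
    refine Or.inl fun v hv => den_NN.1 ((on_Sub h3 (hD hv)).trans (sm_zero fun a ha => ?_))
    rw [mp_eq] at ha
    obtain ⟨p, -, rfl⟩ := List.mem_map.1 ha
    rw [den_mul, den_mul, den_sp, den_sp, sL_one, Nat.zero_mod, hf _ (prd_mem hm _ hv), zero_smul]

/-- the fixed space of a word lies in `Sub F` -/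
noncomputable def fixOK (t : List ℕ) (F Yt : SM) : Bool := eqE (.mul (.sp Yt) (.add (.w t) .one)) (NN F)

theorem fixOK_sound {t : List ℕ} {F Yt : SM} (h : fixOK t F Yt = true) {v : V} (hv : act (wd t) v = v) : v ∈ Sub F :=
  den_NN.1 (by rw [← eqE_app h, den_mul, den_add, den_w, hv, den_one, two, map_zero])

end CfsgLib.E7M
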