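import Mathlib
import Cfsg.Agent.Lib.E7M.Sub

/-!
# Separating subgroups from a subgroup with an element of order `127` and few invariant subspaces
-/

set_option autoImplicit false

namespace CfsgLib.E7M

open Module CfsgLib.Comput

attribute [local irreducible] act

theorem finrank_le_act (g : Γ) {W W' : Submodule F2 V} (h : ∀ v ∈ W, act g v ∈ W') : finrank F2 W ≤ finrank F2 W' :=
  LinearMap.finrank_le_finrank_of_injective (f := (act g).restrict h) fun _ _ e1 =>
    Subtype.ext (act_cancel (congrArg Subtype.val e1))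

theorem fixmod {s : Γ} (hs : s ^ 127 = 1) {D : Set V} (hD : s ∈ stabS D) :
    D.ncard ≡ {v | v ∈ D ∧ act s v = v}.ncard [MOD 127] := by
  classical
  have : Fact (Nat.Prime 127) := ⟨by norm_num⟩
  have : Fintype D := Fintype.ofFinite _
  let f : Function.End D := fun v => ⟨act s v, hD v v.2⟩
  have hf : ∀ n v, ((f ^ n) v : V) = act (s ^ n) v := fun n => by
    induction n with
    | zero => exact fun v => by rw [pow_zero, pow_zero, act_one]; rfl
    | succ n ih => exact fun v => by rw [pow_succ, pow_succ, act_mul]; exact ih (f v)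
  have h := Equiv.Perm.card_fixedPoints_modEq (f := f) (p := 127) (n := 1)
    (funext fun v => Subtype.ext (by rw [hf, pow_one, hs, act_one]; rfl))
  rw [← Nat.card_eq_fintype_card, ← Nat.card_eq_fintype_card, Nat.card_coe_set_eq, Nat.card_coe_set_eq,
    ← Set.ncard_image_of_injective f.fixedPoints Subtype.val_injective] at h
  convert h using 2
  ext v
  exact ⟨fun h => ⟨⟨v, h.1⟩, Subtype.ext h.2, rfl⟩, by rintro ⟨w, h, rfl⟩; exact ⟨w.2, congrArg Subtype.val h⟩⟩

theorem ncard_sub (W : Submodule F2 V) : (W : Set V).ncard = 2 ^ finrank F2 W := by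
  rw [← Nat.card_coe_set_eq]
  exact (Module.natCard_eq_pow_finrank (K := F2)).trans (by rw [Nat.card_zmod]; rfl)

theorem F_chk : (dimOK (dg 93 33) 33 && dimOK (dg 33 100) 100 && mapOK (dg 93 33) (dg 33 100) .one) = true := by
  decide +kernel

/-- an element of order `127` fixing no root vector -/
def Fr (s : Γ) : Prop := s ^ 127 = 1 ∧ ∀ d v, Rt d v → act s v ≠ v

theorem fr_of {s : Γ} (hg : s ∈ grp) (hs : s ^ 127 = 1) {F : Submodule F2 V} (hF : finrank F2 F ≤ 8)
    (h : ∀ v, act s v = v → v ∈ F) : Fr s := by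
  refine ⟨hs, ?_⟩
  rintro _ _ ⟨g, hg', -, rfl⟩ h1
  have hc : g⁻¹ * s * g ∈ C := C_of_fix (mul_mem (mul_mem (inv_mem hg') hg) hg') (by rw [act_mul, act_mul, h1, act_inv])
  have h2 : (g⁻¹ * s * g) ^ 127 = 1 := by
    rw [show g⁻¹ * s * g = g⁻¹ * s * g⁻¹⁻¹ by rw [inv_inv], conj_pow, hs, mul_one, mul_inv_cancel]
  have h3 : finrank F2 (LinearMap.eqLocus (act (g⁻¹ * s * g)) 1) ≤ 8 :=
    (finrank_le_act g fun v hv => h _ (by
      have : act (g⁻¹ * s * g) v = v := hv
      rw [act_mul, act_mul] at this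
      exact act_cancel (g := g⁻¹) (by rw [this, act_inv]))).trans hF
  generalize g⁻¹ * s * g = c at hc h2 h3
  have k := F_chk
  simp only [Bool.and_eq_true] at k
  have key : ∀ W : Submodule F2 V, c ∈ stabS W →
      2 ^ finrank F2 W ≡ 2 ^ finrank F2 (W ⊓ LinearMap.eqLocus (act c) 1 : Submodule F2 V) [MOD 127] := fun W hW => by
    rw [← ncard_sub, ← ncard_sub]; exact fixmod h2 hW
  have a1 := key (Sub (dg 93 33)) fun v hv => mem_Sub.2 (by
    have := (cf hc).f1 v (by rw [g1_def]; exact mem_Sub.1 hv)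
    rwa [g1_def] at this)
  have a2 := key (Sub (dg 33 100)) fun v hv => mem_Sub.2 (by
    have := (cf hc).f0 v (by rw [g0_def]; exact mem_Sub.1 hv)
    rwa [g0_def] at this)
  have a3 := Submodule.finrank_mono (inf_le_inf_right (LinearMap.eqLocus (act c) 1)
    (show Sub (dg 93 33) ≤ Sub (dg 33 100) from fun v hv => mapOK_sound k.2 hv))
  have a4 := (Submodule.finrank_mono (inf_le_right (a := Sub (dg 33 100)))).trans h3
  rw [dimOK_sound k.1.1] at a1
  rw [dimOK_sound k.1.2] at a2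
  exact (show ∀ b ≤ 8, ∀ a ≤ b, 2 ^ 33 ≡ 2 ^ a [MOD 127] → ¬ 2 ^ 100 ≡ 2 ^ b [MOD 127] by decide) _ a4 _ a3 a1 a2

theorem Fr.conj {s g : Γ} (h : Fr s) (hg : g ∈ grp) : Fr (g * s * g⁻¹) :=
  ⟨by rw [conj_pow, h.1, mul_one, mul_inv_cancel], fun _ v a e1 => h.2 _ _ (a.conj (inv_mem hg)) (by
    rw [act_mul, act_mul] at e1
    exact act_cancel (g := g) (by rw [e1, act_inv']))⟩

theorem Fr.dvd {s : Γ} (h : Fr s) {N : Subgroup Γ} (hN : N ≤ grp) (hs : s ∈ stabS (DD N)) : 127 ∣ (DD N).ncard := by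
  have := fixmod h.1 hs
  rw [show {v | v ∈ DD N ∧ act s v = v} = ∅ from Set.eq_empty_of_forall_notMem fun v ⟨⟨n, hn, e1⟩, h2⟩ =>
    h.2 _ v ⟨n, hN hn, rfl, e1⟩ h2, Set.ncard_empty] at this
  exact (Nat.modEq_zero_iff_dvd).1 this

structure Big (H : Subgroup Γ) : Prop where
  dim : ∀ W : Submodule F2 V, H ≤ stabS W → finrank F2 W ≤ 21 ∨ 112 ≤ finrank F2 W
  ex : ∃ s ∈ H, Fr s

theorem Big.sep_inv {B H : Subgroup Γ} (b : Big B) {W : Submodule F2 V} (h1 : 22 ≤ finrank F2 W)
    (h2 : finrank F2 W ≤ 111) (h : ∀ M, Ov H M → M ≤ stabS W) : Sep H B := fun M o g _ hM => by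
  have a1 : finrank F2 (W.comap (act g)) ≤ finrank F2 W :=
    finrank_le_act g fun v hv => hv
  have a2 : finrank F2 W ≤ finrank F2 (W.comap (act g)) :=
    finrank_le_act g⁻¹ fun v hv => Submodule.mem_comap.2 (by rwa [act_inv'])
  have := b.dim (W.comap (act g)) fun a ha v hv => Submodule.mem_comap.2 (by
    have := h M o (hM a ha) _ (Submodule.mem_comap.1 hv)
    rwa [act_mul, act_mul, act_inv] at this)
  omega

section
variable {N H B : Subgroup Γ} {W : Submodule F2 V}

theorem Big.sep_good (b : Big B) (G : Good N H W) (I : Idn N W) (s : Small N) (o : Orb N 22) {L : Submodule F2 V}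
    (hL : finrank F2 L ≤ 111) (h : DD N ⊆ L) : Sep H B :=
  b.sep_inv (W := Submodule.span F2 (DD N))
    (o 1 _ fun n hn => by rw [act_one]; exact Submodule.subset_span ⟨n, hn, rfl⟩)
    ((Submodule.finrank_mono (Submodule.span_le.2 h)).trans hL) fun M o' m hm _ hv =>
      (Submodule.span_le (p := (Submodule.span F2 (DD N)).comap (act m))).2
        (fun w hw => Submodule.subset_span (G.le_stab o' I s (o.mono le_rfl (by norm_num)) hm w hw)) hv

theorem Big.sep_few (b : Big B) (G : Good N H W) (I : Idn N W) (h : (DD N).ncard < 127) : Sep H B := fun M o g hg hM => by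
  obtain ⟨s, hs, f⟩ := b.ex
  have hs' := hM s hs
  have f' := f.conj hg
  generalize g * s * g⁻¹ = s at hs' f'
  have hN := G.le.trans G.hg
  by_cases h1 : s ∈ stabS (DD N)
  · have := Nat.eq_zero_of_dvd_of_lt (f'.dvd hN h1) h
    rw [Set.ncard_eq_zero] at this
    exact Set.eq_empty_iff_forall_notMem.1 this _ ⟨1, one_mem _, rfl⟩
  have h2 : ∀ k, 0 < k → k < 127 → s ^ k ∉ stabS (DD N) := fun k a1 a2 a3 => by
    obtain ⟨l, -, hl⟩ := Nat.exists_mul_mod_eq_one_of_coprime
      ((Nat.coprime_of_lt_prime (by omega) a2 (by norm_num)).symm) (by norm_num)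
    have := pow_mem a3 l
    rw [← pow_mul, pow_eq_pow_mod _ f'.1, hl, pow_one] at this
    exact h1 this
  have h3 : ∀ i j : Fin 127, i ≠ j → (s ^ (i : ℕ))⁻¹ * s ^ (j : ℕ) ∉ stabS (DD N) := fun i j hij a => by
    rcases lt_or_gt_of_ne (Fin.val_ne_of_ne hij) with h | h
    · refine h2 (j - i) (by omega) (by omega) ?_
      rwa [pow_sub _ h.le, (Commute.pow_pow_self s _ _).inv_right.eq]
    · refine h2 (i - j) (by omega) (by omega) ?_
      rw [pow_sub _ h.le, (Commute.pow_pow_self s _ _).inv_right.eq]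
      simpa using inv_mem a
  have hn : ∀ c : Bool, cond c (X * Y * X) 1 ∈ N := fun c => by cases c; exacts [one_mem _, G.nN]
  have h4 := LinearIndependent.of_pairwise_dual_eq_zero_one
    (fun p : Fin 127 × Bool => act (s ^ (p.1 : ℕ) * cond p.2 (X * Y * X) 1) eT)
    (fun p => co 0 ∘ₗ act (cond (!p.2) (X * Y * X) 1 * (s ^ (p.1 : ℕ))⁻¹)) ?_ ?_
  · have := h4.fintype_card_le_finrank
    rw [finrank_V] at this
    simp at this
  · rintro ⟨i, c⟩ ⟨j, c'⟩ hne
    show co 0 (act _ (act _ eT)) = 0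
    rw [← act_mul]
    by_cases hij : i = j
    · subst hij
      cases c <;> cases c'
      · exact absurd rfl hne
      · rw [mul_assoc, inv_mul_cancel_left, Bool.not_false, cond_true, nn, act_one, co_eT]
      · rw [mul_assoc, inv_mul_cancel_left, Bool.not_true, cond_false, mul_one, act_one, co_eT]
      · exact absurd rfl hne
    · have hm : (s ^ (i : ℕ))⁻¹ * s ^ (j : ℕ) ∈ M := mul_mem (inv_mem (pow_mem hs' _)) (pow_mem hs' _)
      have a := G.comm o I hm (h3 i j hij) (hn c') (hn !c)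
      have r := rt_of (mul_mem (mul_mem (hN (hn !c)) (o.2.1 hm)) (hN (hn c')))
      simpa only [mul_assoc] using co_of_comm r ((r.fix_iff X_grp).1 a)
  · rintro ⟨i, c⟩
    show co 0 (act _ (act _ eT)) = 1
    rw [← act_mul, mul_assoc, inv_mul_cancel_left]
    cases c
    · rw [Bool.not_false, cond_true, cond_false, mul_one, n_eT, co_e0]
    · rw [Bool.not_true, cond_true, cond_false, one_mul, n_eT, co_e0]

theorem Big.sep_tor (b : Big B) (hg : H ≤ grp) (hX : X ∈ H) (h : ∀ M, Ov H M → ∀ d v, Rt d v → d ∈ M → v ∈ DD H)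
    (h1 : (DD H).ncard < 254) (h2 : Orb H 128) : Sep H B := fun M o g hg' hM => by
  classical
  obtain ⟨s, hs, f⟩ := b.ex
  have hs' := hM s hs
  have f' := f.conj hg'
  generalize g * s * g⁻¹ = s at hs' f'
  have h3 := f'.dvd hg (s := s) (by
    rintro _ ⟨n, hn, rfl⟩
    have hm := mul_mem hs' (o.1 hn)
    rw [← act_mul]
    exact h M o _ _ (rt_of (o.2.1 hm)) (mul_mem (mul_mem hm (o.1 hX)) (inv_mem hm)))
  have : Fintype (DD H) := Fintype.ofFinite _
  have h4 := (h2 1 _ fun n hn => by rw [act_one]; exact Submodule.subset_span ⟨n, hn, rfl⟩).trans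
    (finrank_span_le_card (R := F2) (DD H))
  rw [← Set.ncard_eq_toFinset_card'] at h4
  omega

end

end CfsgLib.E7M
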