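import Mathlib
import Cfsg.Agent.Lib.Comput.Lin2
import Cfsg.Agent.Lib.Chev.CertE7
import Cfsg.Agent.Lib.Chev.Basic

/-!
# Packed bit model of the adjoint module of `E₇(2)`

Vectors are numbers below `2^133`; a sparse matrix is a list of pairs (coordinate, column).
-/

set_option autoImplicit false

namespace CfsgLib.E7M

open Cfsg.Lie CfsgLib.Comput Finset
open CfsgLib.Chev hiding force force_eq ix

abbrev F2 := ZMod 2
abbrev V := chevE7.Idx → F2
abbrev E := Module.End F2 V

theorem two (v : V) : v + v = 0 := by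
  funext i; exact CharTwo.add_self_eq_zero _

theorem twoE (f : E) : f + f = 0 := LinearMap.ext fun _ => two _

theorem eq_of_add {a b : V} (h : a + b = 0) : a = b := by
  rw [← add_zero a, ← two b, ← add_assoc, h, zero_add]

theorem f2 (c : F2) : c = 0 ∨ c = 1 := by revert c; decide

/-- the basis vectors: roots first -/
def e (k : ℕ) : V := if k < 126 then eV chevE7 F2 k else hV chevE7 F2 (k - 126)

/-- the index of a coordinate -/
def ix (k : ℕ) : chevE7.Idx :=
  if h : k < 126 then .inr ⟨k, h⟩ else .inl ⟨(k - 126) % 7, Nat.mod_lt _ (by norm_num)⟩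

/-- the coordinates -/
def co (k : ℕ) : V →ₗ[F2] F2 := LinearMap.proj (ix k)

theorem co_e {j k : ℕ} (hj : j < 133) : co j (e k) = if j = k then 1 else 0 := by
  show e k (ix j) = _
  unfold e ix
  by_cases h1 : j < 126 <;> by_cases h2 : k < 126
  · simp [h1, h2, eV_inr]
  · simp only [h1, h2, dif_pos, if_false, hV_inr]; rw [if_neg (by omega)]
  · simp only [h1, h2, dif_neg, not_false_eq_true, if_true, eV_inl]; rw [if_neg (by omega)]
  · simp only [h1, h2, dif_neg, not_false_eq_true, if_false, hV_inl]
    exact if_congr (by omega) rfl rfl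

theorem exists_ix (i : chevE7.Idx) : ∃ k < 133, ix k = i := by
  rcases i with i | i
  · have : (i : ℕ) < 7 := i.2
    refine ⟨126 + i, by omega, ?_⟩
    unfold ix
    rw [dif_neg (by omega)]
    exact congrArg Sum.inl (Fin.ext (by show (126 + (i : ℕ) - 126) % 7 = i; omega))
  · have : (i : ℕ) < 126 := i.2
    exact ⟨i, by omega, by unfold ix; rw [dif_pos this]⟩

theorem vext {v w : V} (h : ∀ k < 133, co k v = co k w) : v = w := by
  funext i
  obtain ⟨k, hk, rfl⟩ := exists_ix i
  exact h k hk

theorem sum_e (v : V) : v = ∑ k ∈ range 133, co k v • e k := by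
  refine vext fun j hj => ?_
  simp only [map_sum, map_smul, co_e hj, smul_eq_mul, mul_ite, mul_one, mul_zero]
  rw [sum_ite_eq, if_pos (mem_range.2 hj)]

theorem eext {f g : E} (h : ∀ k < 133, f (e k) = g (e k)) : f = g := by
  refine LinearMap.ext fun v => ?_
  rw [sum_e v, map_sum, map_sum]
  exact sum_congr rfl fun k hk => by rw [map_smul, map_smul, h k (mem_range.1 hk)]

/-- the vector with a given code -/
def dec (x : ℕ) : V := dec2 133 e x 0

theorem co_dec2 {k : ℕ} (hk : k < 133) (x c : ℕ) :
    co k (dec2 133 e x c) = if x.testBit (c * 133 + k) then 1 else 0 := by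
  rw [dec2, map_sum, sum_eq_single k]
  · split_ifs
    · rw [co_e hk, if_pos rfl]
    · exact map_zero _
  · intro j _ hj
    split_ifs
    · rw [co_e hk, if_neg hj.symm]
    · exact map_zero _
  · intro h; exact absurd (mem_range.2 hk) h

theorem co_dec {k : ℕ} (hk : k < 133) (x : ℕ) : co k (dec x) = if x.testBit k then 1 else 0 := by
  rw [dec, co_dec2 hk]; simp

theorem dec_xor (x y : ℕ) : dec (x ^^^ y) = dec x + dec y := dec2_xor two _ _ _ _ _

theorem dec_zero : dec 0 = 0 := dec2_zero _ _ _

theorem dec_pow {k : ℕ} (hk : k < 133) : dec (2 ^ k) = e k := dec2_two_pow e hk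

theorem dec_mod (x : ℕ) : dec (x % 2 ^ 133) = dec x :=
  vext fun k hk => by rw [co_dec hk, co_dec hk, Nat.testBit_mod_two_pow]; simp [hk]

theorem dec_inj {x y : ℕ} (hx : x < 2 ^ 133) (hy : y < 2 ^ 133) (h : dec x = dec y) : x = y := by
  refine Nat.eq_of_testBit_eq fun k => ?_
  by_cases hk : k < 133
  · have := congrArg (co k) h
    rw [co_dec hk, co_dec hk] at this
    revert this
    cases x.testBit k <;> cases y.testBit k <;> simp
  · rw [Nat.testBit_lt_two_pow (hx.trans_le (Nat.pow_le_pow_right (by norm_num) (by omega))),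
      Nat.testBit_lt_two_pow (hy.trans_le (Nat.pow_le_pow_right (by norm_num) (by omega)))]

theorem dec_ne {x y : ℕ} (h : x % 2 ^ 133 ≠ y % 2 ^ 133) : dec x ≠ dec y := fun h' =>
  h (dec_inj (Nat.mod_lt _ (by norm_num)) (Nat.mod_lt _ (by norm_num)) (by rwa [dec_mod, dec_mod]))

/-- a sparse matrix -/
def sL (L : List (ℕ × ℕ)) : E := (L.map fun p => (co (p.1 % 133)).smulRight (dec p.2)).sum

theorem sL_nil : sL [] = 0 := rfl

theorem sL_cons (p : ℕ × ℕ) (L : List (ℕ × ℕ)) (v : V) :
    sL (p :: L) v = co (p.1 % 133) v • dec p.2 + sL L v := by simp [sL]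

theorem sL_one (s m : ℕ) (v : V) : sL [(s, m)] v = co (s % 133) v • dec m := by simp [sL]

theorem sL_mem {W : Submodule F2 V} {L : List (ℕ × ℕ)} (h : ∀ p ∈ L, dec p.2 ∈ W) (v : V) : sL L v ∈ W := by
  induction L with
  | nil => exact W.zero_mem
  | cons p L ih =>
    rw [sL_cons]
    exact W.add_mem (W.smul_mem _ (h p List.mem_cons_self)) (ih fun q hq => h q (List.mem_cons_of_mem _ hq))

/-- `2 ^ 133` -/
def TT : ℕ := 10889035741470030830827987437816582766592

theorem TT_eq : TT = 2 ^ 133 := by norm_num [TT]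

/-- add the image of the blocks of `Y` under a sparse matrix to `acc` -/
noncomputable def sa (R : ℕ) (L : List (ℕ × ℕ)) (Y : ℕ) : ℕ → ℕ :=
  List.rec (motive := fun _ => ℕ → ℕ) (fun acc => acc)
    (fun p _ ih acc => force (Nat.xor acc
      (Nat.mul (Nat.land (Nat.shiftRight Y (Nat.mod p.1 133)) R) (Nat.mod p.2 TT))) ih) L

theorem dec2_sa {w c : ℕ} (hc : c < w) (L : List (ℕ × ℕ)) (Y acc : ℕ) :
    dec2 133 e (sa (ones 133 w) L Y acc) c = dec2 133 e acc c + sL L (dec2 133 e Y c) := by
  induction L generalizing acc with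
  | nil => exact (add_zero _).symm
  | cons p L ih =>
    have e1 : sa (ones 133 w) (p :: L) Y acc = sa (ones 133 w) L Y
      (acc ^^^ (((Y >>> (p.1 % 133)) &&& ones 133 w) * (p.2 % TT))) := force_eq _ _
    rw [e1, ih, dec2_xor two, sL_cons, add_assoc]
    refine congrArg (dec2 133 e acc c + ·) (congrArg (· + sL L (dec2 133 e Y c)) (vext fun k hk => ?_))
    rw [co_dec2 hk, ones_eq (by norm_num), TT_eq, testBit_sel_mul (Nat.mod_lt _ (by norm_num)) w _ c k hk, map_smul,
      co_dec2 (Nat.mod_lt _ (by norm_num)), co_dec hk, Nat.testBit_shiftRight, Nat.testBit_mod_two_pow,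
      add_comm (p.1 % 133)]
    cases Y.testBit (c * 133 + p.1 % 133) <;> cases p.2.testBit k <;> simp [hc, hk]

/-- the columns of a packed matrix -/
noncomputable def unp (X : ℕ) : List (ℕ × ℕ) :=
  Nat.rec [] (fun k ih => (k, Nat.shiftRight X (Nat.mul k 133)) :: ih) 133

theorem sL_unp {X : ℕ} {f : E} (h : ∀ c < 133, dec2 133 e X c = f (e c)) : sL (unp X) = f := by
  have key : ∀ n ≤ 133, ∀ v, sL (Nat.rec [] (fun k ih => (k, Nat.shiftRight X (Nat.mul k 133)) :: ih) n) v =
      ∑ k ∈ range n, co k v • f (e k) := by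
    intro n hn v
    induction n with
    | zero => rfl
    | succ n ih =>
      refine (sL_cons _ _ _).trans ?_
      rw [sum_range_succ, ← ih (by omega), ← h n (by omega), ← dec2_shift,
        Nat.mod_eq_of_lt (show n < 133 by omega)]
      exact add_comm _ _
  refine LinearMap.ext fun v => (key 133 le_rfl v).trans ?_
  conv_rhs => rw [sum_e v]
  simp only [map_sum, map_smul]

/-! ### dimensions -/

theorem finrank_sL (L : List (ℕ × ℕ)) : Module.finrank F2 (LinearMap.range (sL L)) ≤ L.length := by
  classical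
  have h : LinearMap.range (sL L) ≤ Submodule.span F2 ((L.map fun p => dec p.2).toFinset : Set V) := by
    rintro _ ⟨v, rfl⟩
    exact sL_mem (fun p hp => Submodule.subset_span (by simpa using ⟨p.1, p.2, hp, rfl⟩)) v
  exact (Submodule.finrank_mono h).trans ((finrank_span_finset_le_card _).trans
    ((List.toFinset_card_le _).trans (by simp)))

/-- the diagonal projection onto `n` coordinates from `a` on -/
noncomputable def dg (a n : ℕ) : List (ℕ × ℕ) :=
  Nat.rec [] (fun k ih => (Nat.add a k, Nat.shiftLeft 1 (Nat.add a k)) :: ih) n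

theorem dg_e {n : ℕ} (hn : n ≤ 133) (j : ℕ) : sL (dg 0 n) (e j) = if j < n then e j else 0 := by
  induction n with
  | zero => rfl
  | succ n ih =>
    refine (sL_cons _ _ _).trans ?_
    show co ((0 + n) % 133) (e j) • dec (1 <<< (0 + n)) + sL (dg 0 n) (e j) = _
    rw [ih (by omega), zero_add, Nat.mod_eq_of_lt (show n < 133 by omega), co_e (by omega), Nat.one_shiftLeft, dec_pow (by omega)]
    rcases lt_trichotomy j n with h | rfl | h
    · rw [if_neg (by omega), if_pos h, if_pos (by omega), zero_smul, zero_add]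
    · simp
    · rw [if_neg (by omega), if_neg (by omega), if_neg (by omega), zero_smul, zero_add]

theorem le_finrank {W : Submodule F2 V} {n : ℕ} (hn : n ≤ 133) {f g : E} (hg : ∀ v, g v ∈ W)
    (h : sL (dg 0 n) = f * g) : n ≤ Module.finrank F2 W := by
  have h1 : LinearIndependent F2 fun j : Fin n => e j := by
    refine LinearIndependent.of_pairwise_dual_eq_zero_one _ (fun j : Fin n => co j) (fun i j hij => ?_) fun i => ?_
    · show co i (e j) = 0
      rw [co_e (by omega), if_neg fun h => hij (Fin.ext h)]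
    · rw [co_e (by omega), if_pos rfl]
  have h2 : Submodule.span F2 (Set.range fun j : Fin n => e j) ≤ W.map f := by
    rw [Submodule.span_le]
    rintro _ ⟨j, rfl⟩
    refine ⟨g (e j), hg _, ?_⟩
    rw [← Module.End.mul_apply, ← h, dg_e hn, if_pos j.2]
  have := Submodule.finrank_mono h2
  rw [finrank_span_eq_card h1, Fintype.card_fin] at this
  exact this.trans (Submodule.finrank_map_le _ _)

theorem finrank_V : Module.finrank F2 V = 133 := by
  rw [Module.finrank_fintype_fun_eq_card, Fintype.card_sum, Fintype.card_fin, Fintype.card_fin]; rfl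

end CfsgLib.E7M
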