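import Mathlib
import Cfsg.Agent.Lib.E7M.Big

/-!
# Certificates for the subgroups containing the highest and the lowest root involution
-/

set_option autoImplicit false

namespace CfsgLib.E7M

open Module CfsgLib.Comput

attribute [local irreducible] act

theorem mem_L1 {v : V} : v ∈ Sub (dg 93 32) ↔ p1 v = v := by rw [p1_def]; exact mem_Sub

theorem mem_mp {α β : Type} {f : α → β} {l : List α} {b : β} (h : b ∈ mp f l) : ∃ a ∈ l, f a = b :=
  List.mem_map.1 (mp_eq f l ▸ h)

/-- words in `Q` -/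
noncomputable def qOK (us : List (List ℕ)) : Bool := aL (aL fun r => Nat.ble 93 r && Nat.blt r 126) us

theorem qOK_sound {us : List (List ℕ)} (h : qOK us = true) {u : List ℕ} (hu : u ∈ us) : wd u ∈ Q :=
  wd_mem fun r hr => by
    have := aL_spec (aL_spec h u hu) r hr
    rw [Bool.and_eq_true, Nat.ble_eq, Nat.blt_eq] at this
    exact x_gen this.2 this.1

/-- the code of `φ` -/
noncomputable def ph (u : List ℕ) : ℕ := vv (.mul P1 (.w u)) hc

theorem dec_ph (u : List ℕ) : dec (ph u) = φ (wd u) := by rw [ph, dec_vv, den_mul, den_w, dec_hT, φ_def, p1_def]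

noncomputable def liftOK (L : SM) (us : List (List ℕ)) : Bool := qOK us && cols L == mp ph us

theorem lift_le {L : SM} {us : List (List ℕ)} (h : liftOK L us = true) {M : Subgroup Γ} (hM : ∀ u ∈ us, wd u ∈ M) :
    Sub L ≤ im M := by
  rw [liftOK, Bool.and_eq_true, beq_iff_eq] at h
  refine Sub_le fun c hc => ?_
  obtain ⟨u, hu, rfl⟩ := mem_mp (h.2 ▸ hc)
  exact ⟨_, hM u hu, qOK_sound h.1 hu, (dec_ph u).symm⟩

/-- the map `a` on `Sub D` is a combination of the forms `co 125 ∘ u` -/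
noncomputable def ndOK (a : Ex) (D : SM) (us : List (List ℕ)) (l : List (ℕ × ℕ)) : Bool :=
  eqOn a (sm (mp (fun p => .mul (.sp [(125, p.2)]) (.w (nth [] us p.1))) l)) (cols D)

theorem ndOK_sound {a : Ex} {D : SM} {us : List (List ℕ)} {l : List (ℕ × ℕ)} (h : ndOK a D us l = true) {v : V}
    (hv : v ∈ Sub D) (h0 : co 125 v = 0) (h1 : ∀ u ∈ us, co 125 (act (wd u) v) = 0) : den a v = 0 :=
  (on_Sub h hv).trans (sm_zero fun b hb => by
    obtain ⟨p, -, rfl⟩ := mem_mp hb
    rw [den_mul, den_sp, sL_one, den_w]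
    rcases nth_mem_or [] us p.1 with h2 | h2
    · rw [h1 _ h2, zero_smul]
    · rw [h2, show wd [] = 1 from rfl, act_one, h0, zero_smul])

theorem co_p1 (v : V) : co 125 (p1 v) = 0 := by
  have h := g1_eq (p1 v)
  rw [g1_p1, p1_p1, left_eq_add] at h
  exact (smul_eq_zero.1 h).resolve_right eT_ne

noncomputable def fixT (w : List ℕ) : Bool := Nat.beq (vv (.w w) tc) tc

theorem fixT_sound {w : List ℕ} (h : fixT w = true) : act (wd w) eT = eT := by
  have := vv_sound h
  rwa [den_w, dec_eT] at this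

structure Dat where
  VL : SM
  us : List (List ℕ)
  ex : List (List ℕ)
  nd : List (ℕ × ℕ)
  cc : List (List ℕ × SM)
  ro : RO

def Dat.gN (d : Dat) : List (List ℕ) := [125] :: [0] :: d.us
def Dat.gH (d : Dat) : List (List ℕ) := [125] :: [0] :: (d.us ++ d.ex)

noncomputable def Dat.ok (d : Dat) : Bool := liftOK d.VL d.us && ndOK .one d.VL d.us d.nd &&
  aL (fun p => fixT (flat d.gH p.1) && eqOn (.sp p.2) (.mul P1 (.w (flat d.gH p.1))) (cols (dg 93 32))) d.cc &&
  roOK (dg 93 32) d.VL (mp Prod.snd d.cc) d.ro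

theorem Dat.X_mem (d : Dat) : X ∈ cl d.gN := by rw [X_def, ← wd_one]; exact mem_cl List.mem_cons_self

theorem Dat.Y_mem (d : Dat) : Y ∈ cl d.gN := by
  rw [Y_def, ← wd_one]; exact mem_cl (List.mem_cons_of_mem _ List.mem_cons_self)

theorem Dat.u_mem (d : Dat) {u : List ℕ} (h : u ∈ d.us) : wd u ∈ cl d.gN :=
  mem_cl (List.mem_cons_of_mem _ (List.mem_cons_of_mem _ h))

theorem Dat.le (d : Dat) : cl d.gN ≤ cl d.gH := cl_le fun w hw => mem_cl (by
  simp only [Dat.gN, Dat.gH, List.mem_cons, List.mem_append] at hw ⊢; tauto)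

theorem Dat.lift {d : Dat} (h : d.ok = true) : liftOK d.VL d.us = true := by
  simp only [Dat.ok, Bool.and_eq_true] at h; exact h.1.1.1

theorem Dat.q {d : Dat} (h : d.ok = true) {u : List ℕ} (hu : u ∈ d.us) : wd u ∈ Q := by
  have := Dat.lift h
  rw [liftOK, Bool.and_eq_true] at this
  exact qOK_sound this.1 hu

theorem im_L1 (M : Subgroup Γ) : im M ≤ Sub (dg 93 32) := by
  rintro _ ⟨u, -, -, rfl⟩
  exact mem_L1.2 (p1_φ u)

theorem Dat.good {d : Dat} (h : d.ok = true) : Good (cl d.gN) (cl d.gH) (Sub d.VL) := by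
  have hl := Dat.lift h
  have hq := @Dat.q d h
  have hs := lift_le hl fun u hu => d.u_mem hu
  simp only [Dat.ok, Bool.and_eq_true] at h
  obtain ⟨⟨⟨-, h2⟩, h3⟩, h4⟩ := h
  refine ⟨d.le, cl_grp _, d.X_mem, d.Y_mem, fun M o => ?_, hs, fun v hv h0 => ?_⟩
  · have hN := d.le.trans o.1
    refine (roOK_sound h4 (im_L1 M) (lift_le hl fun u hu => hN (d.u_mem hu)) fun m hm => ?_).resolve_right
      fun h5 => o.2.2 (top_of_Q (fun u hu => mem_of_im (hN d.X_mem) hu (h5 (mem_L1.2 (p1_φ u)))) (hN d.Y_mem))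
    obtain ⟨p, hp, rfl⟩ := mem_mp hm
    have h6 := aL_spec h3 p hp
    rw [Bool.and_eq_true] at h6
    have hc := C_of_fix (wd_grp _) (fixT_sound h6.1)
    have hM := o.1 (flat_mem d.gH p.1)
    rintro _ ⟨u, hu, hu', rfl⟩
    refine ⟨_, mul_mem (mul_mem hM hu) (inv_mem hM), conj_Q hc hu', ?_⟩
    rw [φ_conj hc hu', ← den_sp, on_Sub h6.2 (mem_L1.2 (p1_φ u)), den_mul, den_w, p1_def]
  · by_contra h5
    refine h0 (ndOK_sound h2 hv ?_ fun u hu => (f2 _).resolve_right fun h6 => h5 ⟨_, d.u_mem hu, hq hu, h6⟩)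
    rw [← mem_L1.1 (im_L1 _ (hs hv)), co_p1]

noncomputable def Dat.idOK (d : Dat) (fp : List (List ℕ × SM)) : Bool := aL (fun p => fixT (flat d.gN p.1)) fp &&
  eqOn (NN d.VL) (sm (mp (fun p => .mul (.sp p.2) (.mul (NN d.VL) (.add .one (.mul P1 (.w (flat d.gN p.1)))))) fp))
    (cols (dg 93 32))

theorem Dat.idn {d : Dat} (h : d.ok = true) {fp : List (List ℕ × SM)} (h' : d.idOK fp = true) :
    Idn (cl d.gN) (Sub d.VL) := by
  rw [Dat.idOK, Bool.and_eq_true] at h'
  refine ⟨fun M hX hY hu => cl_le fun w hw => ?_, fun v hv h1 =>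
    den_NN.1 ((on_Sub h'.2 (mem_L1.2 hv)).trans (sm_zero fun a ha => ?_))⟩
  · rcases List.mem_cons.1 hw with rfl | hw
    · rwa [wd_one, ← X_def]
    rcases List.mem_cons.1 hw with rfl | hw
    · rwa [wd_one, ← Y_def]
    · exact hu _ (d.u_mem hw) (Dat.q h hw)
  · obtain ⟨p, hp, rfl⟩ := mem_mp ha
    rw [den_mul, den_mul, den_add, den_one, den_mul, den_w, ← p1_def,
      den_NN.2 (h1 _ (flat_mem _ _) (fixT_sound (aL_spec h'.1 p hp))), map_zero]

/-- a product of conjugates of `X` -/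
noncomputable def cjw (gs : List (List ℕ)) (tw : List (List ℕ)) : List ℕ :=
  List.rec [] (fun n _ ih => ap (flat gs n) (125 :: ap (rv (flat gs n)) ih)) tw

noncomputable def smallOK (gs : List (List ℕ)) (F : SM) (l : List (List (List ℕ) × SM)) : Bool :=
  Nat.ble (lenL F) 13 && eqE (NN F) (sm (mp (fun p => .mul (.sp p.2) (.add (.w (cjw gs p.1)) .one)) l))

theorem smallOK_sound {gs : List (List ℕ)} {F : SM} {l : List (List (List ℕ) × SM)} (h : smallOK gs F l = true) :
    Small (cl gs) := by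
  rw [smallOK, Bool.and_eq_true, Nat.ble_eq] at h
  refine ⟨Sub F, (finrank_Sub F).trans h.1, fun v hv => den_NN.1 ((eqE_app h.2 v).trans (sm_zero fun a ha => ?_))⟩
  obtain ⟨p, -, rfl⟩ := mem_mp ha
  have key : ∀ tw, act (wd (cjw gs tw)) v = v := fun tw => by
    induction tw with
    | nil => exact act_one v
    | cons n tw ih =>
      have := hv _ (flat_mem gs n)
      rw [show cjw gs (n :: tw) = ap (flat gs n) (125 :: ap (rv (flat gs n)) (cjw gs tw)) from rfl, wd_ap, wd_cons,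
        wd_ap, wd_rv, ← X_def, ← mul_assoc, ← mul_assoc, act_mul, ih, this]
  rw [den_mul, den_add, den_w, key, den_one, two, map_zero]

noncomputable def orbOK (gs : List (List ℕ)) (n : ℕ) (ws : List (List ℕ)) (f : SM) : Bool :=
  spanOK n (mp (fun k => vv (.w (flat gs k)) tc) ws) f

theorem orbOK_sound {gs ws : List (List ℕ)} {n : ℕ} {f : SM} (h : orbOK gs n ws f = true) : Orb (cl gs) n :=
  fun g _ hW => spanOK_sound h g fun c hc => by
    obtain ⟨k, -, rfl⟩ := mem_mp hc
    rw [dec_vv, den_w, dec_eT]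
    exact hW _ (flat_mem gs k)

/-- an invariant subspace which shows that the subgroup is proper -/
noncomputable def invOK (gs : List (List ℕ)) (L : SM) (r c : ℕ) : Bool := aL (fun w => mapOK L L (.w w)) gs &&
  Nat.beq (vv (.sp L) c) c && !Nat.beq (vv (.mul (.sp L) (.w [r])) c % TT) (vv (.w [r]) c % TT)

theorem invOK_sound {gs : List (List ℕ)} {L : SM} {r c : ℕ} (h : invOK gs L r c = true) :
    cl gs ≤ stabS (Sub L) ∧ dec c ∈ Sub L ∧ ¬ grp ≤ cl gs := by
  simp only [invOK, Bool.and_eq_true] at h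
  have h1 := cl_stab h.1.1
  have h2 : dec c ∈ Sub L := mem_Sub.2 (vv_sound h.1.2)
  refine ⟨h1, h2, fun h3 => vv_ne h.2 ?_⟩
  rw [dec_vv, den_mul, den_w1]
  exact mem_Sub.1 (h1 (h3 (x_mem r)) _ h2)

theorem DD_sub {N : Subgroup Γ} {D : Set V} (h : N ≤ stabS D) (h0 : eT ∈ D) : DD N ⊆ D := by
  rintro _ ⟨n, hn, rfl⟩
  exact h hn _ h0

/-- the facts used for the generic cases -/
structure Reg (N H : Subgroup Γ) (W : Submodule F2 V) (n : ℕ) : Prop where
  good : Good N H W
  idn : Idn N W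
  small : Small N
  orb : Orb N 22
  prop : ¬ grp ≤ H
  inv : ∃ L : Submodule F2 V, finrank F2 L ≤ 111 ∧ DD N ⊆ L
  dim : finrank F2 W = n

theorem Dat.reg {d : Dat} {fp : List (List ℕ × SM)} {F f L : SM} {l : List (List (List ℕ) × SM)} {ws : List (List ℕ)}
    {r n : ℕ} (h1 : d.ok = true) (h2 : (d.idOK fp && smallOK d.gN F l && orbOK d.gN 22 ws f && invOK d.gH L r tc &&
      Nat.ble (lenL L) 111 && dimOK d.VL n) = true) : Reg (cl d.gN) (cl d.gH) (Sub d.VL) n := by
  simp only [Bool.and_eq_true, Nat.ble_eq] at h2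
  obtain ⟨⟨⟨⟨⟨a1, a2⟩, a3⟩, a4⟩, a5⟩, a6⟩ := h2
  obtain ⟨b1, b2, b3⟩ := invOK_sound a4
  exact ⟨Dat.good h1, Dat.idn h1 a1, smallOK_sound a2, orbOK_sound a3, b3,
    ⟨_, (finrank_Sub L).trans a5, DD_sub (d.le.trans b1) (dec_eT ▸ b2)⟩, dimOK_sound a6⟩

/-- a word permutes a list of vectors -/
noncomputable def permOK (l : List ℕ) (p : List ℕ × List ℕ) : Bool :=
  Nat.beq (evL (.w p.1) l) (pk (mp (nth 0 l) p.2))

theorem card_DD {l : List ℕ} {ps : List (List ℕ × List ℕ)} {gs : List (List ℕ)} {i : ℕ}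
    (h : (aL (permOK l) ps && mp Prod.fst ps == gs && Nat.beq (nth 0 l i) tc) = true) :
    (DD (cl gs)).ncard ≤ lenL l + 1 := by
  classical
  simp only [Bool.and_eq_true, beq_iff_eq, Nat.beq_eq] at h
  have hn : ∀ j, dec (nth 0 l j) ∈ (((0 :: l).map dec).toFinset : Set V) := fun j => by
    rcases nth_mem_or 0 l j with h1 | h1
    · simpa using Or.inr ⟨_, h1, rfl⟩
    · simp [h1]
  refine (Set.ncard_le_ncard (DD_sub (D := (((0 :: l).map dec).toFinset : Set V)) (cl_le fun w hw v hv => ?_)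
    (by rw [← dec_eT, ← h.2]; exact hn i))).trans ?_
  · obtain ⟨p, hp, rfl⟩ := mem_mp (h.1.2 ▸ hw)
    have h1 := aL_spec h.1.1 p hp
    obtain ⟨c, hc, rfl⟩ : ∃ c ∈ 0 :: l, dec c = v := List.mem_map.1 (List.mem_toFinset.1 (Finset.mem_coe.1 hv))
    rcases List.mem_cons.1 hc with rfl | hc
    · rwa [dec_zero, map_zero, ← dec_zero]
    obtain ⟨j, hj, rfl⟩ := List.getElem_of_mem hc
    have h2 := dec2_evL (.w p.1) hj
    rw [Nat.eq_of_beq_eq_true h1, dec2_pk, den_w, mp_eq] at h2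
    rw [← h2]
    by_cases h3 : j < p.2.length
    · rw [List.getD_eq_getElem _ _ (by simpa using h3), List.getElem_map]; exact hn _
    · rw [List.getD_eq_default _ _ (by simpa using h3)]; simp
  · rw [Set.ncard_coe_finset, lenL_eq]
    exact (List.toFinset_card_le _).trans (by simp)

/-! ### counting singular vectors -/

theorem co_dg {a n k : ℕ} (hn : a + n ≤ 133) (hk : k < 133) (v : V) :
    co k (sL (dg a n) v) = if a ≤ k ∧ k < a + n then co k v else 0 := by
  induction n with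
  | zero => rw [if_neg (by omega)]; exact map_zero _
  | succ n ih =>
    rw [show dg a (n + 1) = (a + n, 1 <<< (a + n)) :: dg a n from rfl, sL_cons, map_add, ih (by omega),
      Nat.mod_eq_of_lt (show a + n < 133 by omega), Nat.one_shiftLeft, dec_pow (by omega), map_smul, co_e hk]
    by_cases h : k = a + n
    · rw [if_pos h, if_neg (by omega), if_pos (by omega), h, smul_eq_mul, mul_one, add_zero]
    · rw [if_neg h, smul_zero, zero_add]
      exact if_congr (by omega) rfl rfl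

def pm : ℕ := 0x1fc00000001ffffffffffffffe00000000

theorem p0_dec (y : ℕ) : p0 (dec y) = dec (y &&& pm) := vext fun k hk => by
  have h : ∀ k < 133, pm.testBit k = decide (33 ≤ k ∧ k < 93 ∨ 126 ≤ k) := by decide +kernel
  rw [p0_def, P0, den_add, den_sp, den_sp, map_add, co_dg (by norm_num) hk, co_dg (by norm_num) hk, co_dec hk, co_dec hk,
    Nat.testBit_and, h k hk]
  by_cases h1 : 33 ≤ k ∧ k < 93
  · simp [h1, show ¬ 126 ≤ k by omega]
  · by_cases h2 : 126 ≤ k <;> simp [h1, h2, hk]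

/-- the number of singular vectors -/
noncomputable def cnt (us : List (List ℕ)) : ℕ → ℕ :=
  List.rec (fun y => cond (Nat.beq (Nat.land y pm) 0 || Nat.beq (Nat.land y pm) hc) 1 0)
    (fun u _ ih y => Nat.add (ih y) (force (vv (.w u) y) ih)) us

noncomputable def indOK (L : SM) : Bool :=
  List.rec true (fun p l ih => Nat.blt p.1 133 && p.2.testBit p.1 && aL (fun q => !q.2.testBit p.1) l && ih) L

/-- the span of a list -/
def spn (l : List ℕ) : Submodule F2 V := Submodule.span F2 {v | ∃ c ∈ l, dec c = v}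

theorem cnt_eq {us : List (List ℕ)} {L : SM} (h1 : ∀ u ∈ us, wd u ∈ Q) (h2 : cols L = mp ph us) (h3 : indOK L = true)
    {a : Γ} (ha : a ∈ Q) {y : ℕ} (hy : dec y = act a e0) :
    {v | v + φ a ∈ spn (cols L) ∧ Tv v}.ncard = cnt us y := by
  induction us generalizing L a y with
  | nil =>
    have h4 : ∀ v, v + φ a ∈ spn (cols L) ↔ v = φ a := fun v => by
      rw [h2, spn, show {v | ∃ c ∈ mp ph [], dec c = v} = ∅ from
        Set.eq_empty_of_forall_notMem fun _ ⟨_, h, _⟩ => List.not_mem_nil h, Submodule.span_empty, Submodule.mem_bot]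
      exact ⟨eq_of_add, fun h => by rw [h, two]⟩
    have h5 : y &&& pm < 2 ^ 133 := Nat.and_lt_two_pow _ (by decide +kernel)
    have h6 : Tv (φ a) ↔ (Nat.beq (y &&& pm) 0 || Nat.beq (y &&& pm) hc) = true := by
      rw [Bool.or_eq_true, Nat.beq_eq, Nat.beq_eq, show Tv (φ a) ↔ T a from
        ⟨fun ⟨_, b1, b2, b3⟩ => T_of_φ b1 ha b2 b3, fun b => ⟨a, ha, rfl, b⟩⟩, T, ← hy, p0_dec, ← dec_hT, ← dec_zero]
      exact or_congr ⟨dec_inj h5 (by norm_num), congrArg dec⟩ ⟨dec_inj h5 (by decide +kernel), congrArg dec⟩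
    show _ = cond (Nat.beq (y &&& pm) 0 || Nat.beq (y &&& pm) hc) 1 0
    cases h7 : (Nat.beq (y &&& pm) 0 || Nat.beq (y &&& pm) hc) <;> rw [h7] at h6
    · rw [cond_false, Set.ncard_eq_zero]
      exact Set.eq_empty_of_forall_notMem fun v hv => Bool.false_ne_true (h6.1 ((h4 v).1 hv.1 ▸ hv.2))
    · rw [cond_true, Set.ncard_eq_one]
      exact ⟨φ a, Set.ext fun v => ⟨fun hv => (h4 v).1 hv.1, fun hv => ⟨(h4 v).2 hv, hv ▸ h6.2 rfl⟩⟩⟩
  | cons u us ih =>
    rcases L with _ | ⟨p, L⟩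
    · exact absurd h2 (List.cons_ne_nil _ _).symm
    obtain ⟨h4, h5⟩ := List.cons_eq_cons.1 (show p.2 :: cols L = ph u :: mp ph us from h2)
    have h6 : (Nat.blt p.1 133 && p.2.testBit p.1 && aL (fun q => !q.2.testBit p.1) L && indOK L) = true := h3
    simp only [Bool.and_eq_true, Nat.blt_eq] at h6
    have hu := h1 u List.mem_cons_self
    have ih' := @ih L (fun u hu => h1 u (List.mem_cons_of_mem _ hu)) h5 h6.2
    have h7 : ∀ v ∈ spn (cols L), co p.1 v = 0 := fun v hv =>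
      (Submodule.span_le (p := LinearMap.ker (co p.1))).2 (by
        rintro _ ⟨c, hc, rfl⟩
        obtain ⟨q, hq, rfl⟩ := mem_mp hc
        have := aL_spec h6.1.2 q hq
        show co p.1 (dec q.2) = 0
        rw [co_dec h6.1.1.1, if_neg (by simpa using this)]) hv
    have h8 : φ (wd u * a) = dec p.2 + φ a := by rw [φ_mul hu ha, h4, dec_ph]
    have h9 : ∀ v, v ∈ spn (cols (p :: L)) ↔ v ∈ spn (cols L) ∨ v + dec p.2 ∈ spn (cols L) := fun v => by
      rw [spn, show {v | ∃ c ∈ cols (p :: L), dec c = v} = insert (dec p.2) {v | ∃ c ∈ cols L, dec c = v} from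
        Set.ext fun v => by simp [show cols (p :: L) = p.2 :: cols L from rfl, eq_comm], Submodule.mem_span_insert]
      constructor
      · rintro ⟨c, z, hz, rfl⟩
        rcases f2 c with rfl | rfl
        · exact Or.inl (by rwa [zero_smul, zero_add])
        · exact Or.inr (by rwa [one_smul, add_comm, ← add_assoc, two, zero_add])
      · rintro (h | h)
        exacts [⟨0, v, h, by rw [zero_smul, zero_add]⟩,
          ⟨1, _, h, by rw [one_smul, add_comm v, ← add_assoc, two, zero_add]⟩]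
    rw [show cnt (u :: us) y = cnt us y + force (vv (.w u) y) (cnt us) from rfl, force_eq, ← ih' ha hy,
      ← ih' (mul_mem hu ha) (y := vv (.w u) y) (by rw [dec_vv, den_w, hy, act_mul]), ← Set.ncard_union_eq]
    · refine congrArg _ (Set.ext fun v => ?_)
      simp only [Set.mem_union, Set.mem_ofPred_eq, h9, h8, or_and_right, add_assoc, add_comm (φ a)]
    · refine Set.disjoint_left.2 fun v a1 a2 => ?_
      have := h7 _ (Submodule.add_mem _ a1.1 a2.1)
      rw [h8, add_add_add_comm, two, zero_add, add_comm (dec p.2), ← add_assoc, two, zero_add, co_dec h6.1.1.1,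
        if_pos h6.1.1.2] at this
      exact one_ne_zero this

theorem Dat.cnt {d : Dat} (h : d.ok = true) {n k : ℕ}
    (h' : (dimOK d.VL n && indOK d.VL && Nat.beq (cnt d.us 1) k) = true) : {v | v ∈ Sub d.VL ∧ Tv v}.ncard = k := by
  have hl := Dat.lift h
  simp only [liftOK, dimOK, Bool.and_eq_true, beq_iff_eq, Nat.beq_eq] at hl h'
  rw [← h'.2, ← cnt_eq (fun u hu => Dat.q h hu) hl.2 h'.1.2 (one_mem _) (dec_e0.trans (act_one _).symm), φ_one,
    show spn (cols d.VL) = Sub d.VL from le_antisymm (Submodule.span_le.2 (by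
      rintro _ ⟨c, hc, rfl⟩; exact mem_Sub.2 (eqOn_sound h'.1.1.1.2 hc)))
      (Sub_le fun c hc => Submodule.subset_span ⟨c, hc, rfl⟩)]
  simp only [add_zero]

end CfsgLib.E7M
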