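import Mathlib
import Cfsg.Agent.Lib.E7M.Mod

/-!
# Kernel checks of identities between root elements of `E₇(2)` and the projections of the grading
-/

set_option autoImplicit false

namespace CfsgLib.E7M

open CfsgLib.Comput

/-- a test for all numbers in an interval -/
noncomputable def aI (a n : ℕ) (f : ℕ → Bool) : Bool := allLt (fun i => force (Nat.add a i) f) n

theorem aI_spec {a n : ℕ} {f : ℕ → Bool} (h : aI a n f = true) {r : ℕ} (h1 : a ≤ r) (h2 : r < a + n) :
    f r = true := by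
  have := allLt_sound h (r - a) (by omega)
  rwa [force_eq, show a.add (r - a) = r from Nat.add_sub_cancel' h1] at this

/-- the code of the highest coroot -/
def hc : ℕ := 0x1500000000000000000000000000000000
/-- the code of the highest root vector -/
def tc : ℕ := 0x20000000000000000000000000000000

noncomputable def P1 : Ex := .sp (dg 93 32)
noncomputable def G1 : Ex := .sp (dg 93 33)
noncomputable def G0 : Ex := .sp (dg 33 100)
noncomputable def P0 : Ex := .add (.sp (dg 33 60)) (.sp (dg 126 7))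
def O0 : Ex := .sp [(0, 1)]
def OT : Ex := .sp [(125, tc)]

noncomputable def cC (r : ℕ) : Bool := Nat.beq (vv (.w [r]) tc) tc &&
    eqE (.mul G1 (.mul (.w [r]) G1)) (.mul (.w [r]) G1) && eqE (.mul G0 (.mul (.w [r]) G0)) (.mul (.w [r]) G0) &&
    eqE (.mul O0 (.w [r])) O0 && Nat.beq (vv (.mul G1 (.add (.w [r]) .one)) hc) (vv (.add (.w [r]) .one) hc) &&
    eqE (.w [r, 125]) (.w [125, r])

theorem C_chk : aI 33 93 cC = true := by decide +kernel

noncomputable def cQ (r : ℕ) : Bool := eqE (.mul P1 (.mul (.w [r]) G1)) P1 &&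
    Nat.beq (vv (.mul P1 (.w [r])) hc) (vv P1 (2 ^ r)) && Nat.beq (vv G1 (2 ^ r)) (2 ^ r) &&
    Nat.beq (vv (.mul P0 (.w [r])) 1) (cond (r == 125) hc 0)

theorem Q_chk : aI 93 33 cQ = true := by decide +kernel

theorem id_chk : (eqE G1 (.add P1 OT) && eqE (.mul P1 G1) P1 && eqE (.mul G1 P1) P1 && eqE (.mul P0 G1) (.sp []) &&
    eqE (.mul P1 P1) P1 && Nat.beq (vv P1 hc) 0 && Nat.beq (vv P0 hc) hc && Nat.beq (vv P1 tc) 0 &&
    Nat.beq (vv (.w [125]) 1) (1 ^^^ hc ^^^ tc) && eqE (.w [125, 0, 125]) (.w [0, 125, 0]) &&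
    eqE (.mul O0 (.mul (.w [125, 0, 125]) G1)) (.mul (.sp [(125, 1)]) G1) &&
    Nat.beq (vv (.w [125, 0, 125]) 1) tc && Nat.beq (vv P0 1) 0 && Nat.beq (vv G1 tc) tc) = true := by
  decide +kernel

noncomputable def cK (r : ℕ) : Bool := Nat.beq (vv (.w [r]) 1) 1 && Nat.beq (vv (.w [r]) hc) hc &&
    eqE (.mul P0 (.w [r])) (.mul (.w [r]) P0)

theorem K_chk : aI 33 60 cK = true := by decide +kernel

end CfsgLib.E7M
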