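import Mathlib
import Cfsg.Agent.Lib.E7M.Cert
import Cfsg.Agent.Lib.RGD.ItCore

/-!
# The maximal parabolic subgroups of `E₇(2)`
-/

set_option autoImplicit false

namespace CfsgLib.E7M

open Module Cfsg.Lie CfsgLib.Comput CfsgLib.RGD
open CfsgLib.Chev hiding force force_eq ix allLt
open CfsgLib.Weyl hiding co allLt force force_eq

attribute [local irreducible] act

/-- the maximal parabolic subgroups -/
noncomputable def PP (i : Fin chevE7.rank) : Subgroup Γ := S.P {j | j ≠ i}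

theorem PP_le (i : Fin chevE7.rank) : PP i ≤ grp := (StSys.P_le_grp _).trans grp_eq.le

theorem PP_prop (i : Fin chevE7.rank) : ¬ grp ≤ PP i := fun h =>
  one_ne_zero (hS.x_neg_notMem (h (grp_eq.le (S.x_mem_grp _ 1))))

theorem Q_PP (i : Fin chevE7.rank) : Q ≤ PP i :=
  (gen_le fun _ hr h => x_gen hr (by omega) : Q ≤ U).trans (U_eq.ge.trans (S.U_le_B.trans (StSys.B_le_P _)))

theorem n_PP {i j : Fin chevE7.rank} (h : j ≠ i) : S.n ((rootSys rtOKE7).simple j) 1 ∈ PP i :=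
  Subgroup.mem_sup_right (Subgroup.subset_closure ⟨j, h, rfl⟩)

theorem Ov.n {i : Fin chevE7.rank} {M : Subgroup Γ} (o : Ov (PP i) M) : S.n ((rootSys rtOKE7).simple i) 1 ∉ M := fun h =>
  o.2.2 (grp_eq.ge.trans (StSys.P_univ.ge.trans (sup_le ((StSys.B_le_P _).trans o.1) ((Subgroup.closure_le _).2 (by
    rintro _ ⟨k, -, rfl⟩
    by_cases e1 : k = i
    · rw [e1]; exact h
    · exact o.1 (n_PP e1))))))

theorem Ov.par {i : Fin chevE7.rank} {M : Subgroup Γ} (o : Ov (PP i) M) : M ≤ PP i := fun a ha => by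
  have := (BN.eq_parabolic_of_le (P := hS.bnPair) (M := M.subgroupOf S.grp) fun _ h => o.1 (StSys.B_le_P _ h)).le
    (show (⟨a, grp_eq.ge (o.2.1 ha)⟩ : S.grp) ∈ _ from ha)
  refine BN.parabolic_le (P := hS.bnPair) (M := (PP i).subgroupOf S.grp) (fun _ h => StSys.B_le_P _ h) ?_ this
  rintro y ⟨⟨j, hj⟩, hy⟩
  have hy' : S.n ((rootSys rtOKE7).simple j) 1 ∈ M := hj ▸ hy
  exact (hj.symm ▸ n_PP fun e1 => o.n (e1 ▸ hy') : (y : Γ) ∈ PP i)

theorem sep_par {i j : Fin chevE7.rank} (h : i ≠ j) : Sep (PP i) (PP j) := fun M o g hg hM => by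
  have h1 : g ∈ M := BN.mem_of_map_conj_le (P := hS.bnPair) (M := hS.bnPair.B) (M' := M.subgroupOf S.grp)
    (g := ⟨g, grp_eq.ge hg⟩) le_rfl (fun _ h => o.1 (StSys.B_le_P _ h)) (by
      rintro _ ⟨b, hb, rfl⟩
      exact hM b (StSys.B_le_P _ hb))
  have := mul_mem (mul_mem (inv_mem h1) (hM _ (n_PP h))) h1
  rw [← mul_assoc, ← mul_assoc, inv_mul_cancel, one_mul, inv_mul_cancel_right] at this
  exact o.n this

def pls : List (List ℕ) := [[93, 94, 95, 96, 97, 98, 99, 100, 101, 102, 103, 104, 105, 106, 107, 108, 109, 110, 111, 112, 113, 114, 115, 116, 117, 118, 119, 120, 121, 122, 123, 124, 125], [78, 79, 80, 81, 82, 83, 84, 85, 86, 87, 88, 89, 90, 91, 92, 99, 100, 101, 102, 103, 104, 105, 106, 107, 108, 109, 110, 111, 112, 113, 114, 115, 116, 117, 118, 119, 120, 121, 122, 123, 124, 125], [73, 74, 75, 76, 77, 83, 84, 85, 86, 87, 88, 89, 90, 91, 92, 94, 95, 96, 97, 98, 99, 100, 101, 102, 103, 104, 105, 106, 107, 108,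 109, 110, 111, 112, 113, 114, 115, 116, 117, 118, 119, 120, 121, 122, 123, 124, 125], [69, 70, 71, 72, 74, 75, 76, 77, 79, 80, 81, 82, 83, 84, 85, 86, 87, 88, 89, 90, 91, 92, 95, 96, 97, 98, 99, 100, 101, 102, 103, 104, 105, 106, 107, 108, 109, 110, 111, 112, 113, 114, 115, 116, 117, 118, 119, 120, 121, 122, 123, 124, 125], [66, 67, 68, 70, 71, 72, 75, 76, 77, 80, 81, 82, 84, 85, 86, 87, 88, 89, 90, 91, 92, 96, 97, 98, 100, 101, 102, 103, 104, 105, 106, 107, 108, 109, 110, 111, 112, 113, 114, 115, 116, 117, 118, 119, 120, 121, 122, 123, 124, 125], [64, 65, 67, 68, 71, 72, 76, 77, 81, 82, 85, 86, 88, 89, 90, 91, 92, 97, 98, 101, 102, 104, 105, 106, 107, 108, 110, 111, 112, 113, 114, 115, 116, 117, 118, 119, 120, 121, 122, 123, 124, 125], [63, 65, 68, 72, 77, 82, 86, 89, 91, 92, 98, 102, 105, 107, 108, 111, 113, 114, 116, 117, 118, 120, 121, 122, 123, 124, 125]]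

/-- the nilradicals -/
noncomputable def PL (i : ℕ) : SM := mp (fun r => (r, Nat.shiftLeft 1 r)) (nth [] pls i)

def smp : List ℕ := [93, 78, 73, 69, 66, 64, 63]

theorem P_chk : aI 0 7 (fun i => dimOK (PL i) (lenL (PL i)) && Nat.ble 22 (lenL (PL i)) && Nat.ble (lenL (PL i)) 111 &&
    aI 63 63 (fun r => mapOK (PL i) (PL i) (.w [r])) &&
    aI 0 7 (fun j => j == i || mapOK (PL i) (PL i) (.w [nth 0 smp j, 125 - nth 0 smp j, nth 0 smp j]))) = true := by
  decide +kernel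

theorem Big.sep_par {B : Subgroup Γ} (b : Big B) (i : Fin chevE7.rank) : Sep (PP i) B := by
  have h := aI_spec P_chk (r := i) (Nat.zero_le _) i.2
  simp only [Bool.and_eq_true, Nat.ble_eq] at h
  obtain ⟨⟨⟨⟨h1, h2⟩, h3⟩, h4⟩, h5⟩ := h
  rw [← dimOK_sound h1] at h2 h3
  refine b.sep_inv h2 h3 fun M o => o.par.trans (sup_le ?_ ((Subgroup.closure_le _).2 ?_))
  · rw [StSys.B, H_bot, sup_bot_eq, U_eq]
    exact gen_le fun r hr hp v hv => den_w1 r ▸ mapOK_sound (aI_spec h4 hp (by omega)) hv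
  · rintro _ ⟨j, hj, rfl⟩ v hv
    have h6 := aI_spec h5 (r := j) (Nat.zero_le _) j.2
    rw [Bool.or_eq_true, beq_iff_eq] at h6
    have h7 := mapOK_sound (h6.resolve_left fun e1 => hj (Fin.ext e1)) hv
    have h8 : ∀ j < 7, chevE7.simple j = nth 0 smp j ∧ nth 0 smp j < 126 := by decide +kernel
    rw [den_w, ← nU_eq (h8 j j.2).2, ← (h8 j j.2).1] at h7
    rw [stSys_n]
    exact h7

end CfsgLib.E7M
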