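import Mathlib
import Cfsg.Agent.Lib.E7M.DatA
import Cfsg.Agent.Lib.E7M.DatB
import Cfsg.Agent.Lib.E7M.DatC
import Cfsg.Agent.Lib.E7M.DatT
import Cfsg.Agent.Lib.E7M.DatM
import Cfsg.Agent.Lib.E7M.Par

/-!
# Nineteen proper subgroups of `E₇(2)`, no two of which have conjugates in a common proper subgroup
-/

set_option autoImplicit false

namespace CfsgLib.E7M

open Module CfsgLib.Comput

attribute [local irreducible] act

/-- the facts about one of the eleven subgroups containing `X` and `Y` -/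
structure Fam (d : Dat) (n c : ℕ) (s : Bool) : Prop where
  good : Good (cl d.gN) (cl d.gH) (Sub d.VL)
  orb : Orb (cl d.gH) 14
  prop : ¬ grp ≤ cl d.gH
  big : Sep (cl d.gH) H19
  dim : finrank F2 (Sub d.VL) = n
  cnt : c ≠ 0 → {v | v ∈ Sub d.VL ∧ Tv v}.ncard = c
  small : s = true → Small (cl d.gH)

theorem Reg.fam {d : Dat} {n c : ℕ} (r : Reg (cl d.gN) (cl d.gH) (Sub d.VL) n)
    (h : c ≠ 0 → {v | v ∈ Sub d.VL ∧ Tv v}.ncard = c) : Fam d n c true :=
  ⟨r.good, r.orb.mono r.good.le (by norm_num), r.prop,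
    r.inv.elim fun _ a => big19.sep_good r.good r.idn r.small r.orb a.1 a.2, r.dim, h, fun _ => r.small.mono r.good.le⟩

theorem fam_G2 : Fam dG2 4 0 false := by
  have h := dG2_chk
  simp only [Bool.and_eq_true] at h
  have G := Dat.good dG2_ok
  exact ⟨G, (orbOK_sound h.1.1.2).mono G.le le_rfl, (invOK_sound h.1.2).2.2,
    big19.sep_few G (Dat.idn dG2_ok h.1.1.1) (dG2_card.trans_lt (by norm_num)), dimOK_sound h.2,
    fun h => absurd rfl h, fun h => absurd h Bool.false_ne_true⟩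

theorem fam_T : Fam dTo 0 0 true :=
  ⟨Dat.good dTo_ok, to_orb.mono le_rfl (by norm_num), to_prop,
    big19.sep_tor (cl_grp _) to_ctx.X_mem to_cls (to_card.trans_lt (by norm_num)) to_orb,
    Nat.le_zero.1 (finrank_Sub []), fun h => absurd rfl h, fun _ => to_small⟩

def dat : Fin 11 → Dat := ![dD6, dL8, dU8, dE6, dF6, dL6, dU6, dO8, dT4, dG2, dTo]
def dm : Fin 11 → ℕ := ![16, 12, 12, 20, 20, 8, 8, 8, 8, 4, 0]
def ct : Fin 11 → ℕ := ![0, 127, 1, 0, 0, 31, 1, 28, 10, 0, 0]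
def sb : Fin 11 → Bool := ![true, true, true, true, true, true, true, true, true, false, true]

theorem fam (i : Fin 11) : Fam (dat i) (dm i) (ct i) (sb i) := by
  fin_cases i
  exacts [dD6_reg.fam fun h => absurd rfl h, dL8_reg.fam fun _ => dL8_cnt, dU8_reg.fam fun _ => dU8_cnt,
    dE6_reg.fam fun h => absurd rfl h, dF6_reg.fam fun h => absurd rfl h, dL6_reg.fam fun _ => dL6_cnt,
    dU6_reg.fam fun _ => dU6_cnt, dO8_reg.fam fun _ => dO8_cnt, dT4_reg.fam fun _ => dT4_cnt, fam_G2, fam_T]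

theorem not_cj : ¬ Cj (Sub dF6.VL) (Sub dE6.VL) := fun h => by
  have h1 := perp_chk'
  rw [Bool.and_eq_true] at h1
  have h2 : ∀ u ∈ [125] :: dE6.us, wd u ∈ stabS {e 93} := fun u hu v hv => by
    have := vv_sound (aL_spec h1.1 u hu)
    rw [dec_pow (by norm_num), den_w] at this
    rw [Set.mem_singleton_iff.1 hv, this]; rfl
  have h3 : p1 (e 93) = e 93 := by
    have := vv_sound h1.2
    rwa [dec_pow (by norm_num), ← p1_def] at this
  obtain ⟨w, a1, a2, a3⟩ := h.perp (w := e 93) ⟨h3, fun u hu hW => mem_of_im (M := stabS {e 93})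
      (by rw [X_def, ← wd_one]; exact h2 _ List.mem_cons_self) hu
      (lift_le (Dat.lift dE6_ok) (fun u hu => h2 u (List.mem_cons_of_mem _ hu)) hW) _ rfl⟩
    ⟨x 93, x_gen (by norm_num) le_rfl, (φ_x le_rfl (by norm_num)).trans h3, (Q_x le_rfl (by norm_num)).2.2.2⟩
    (e_ne (by norm_num))
  have a0 : co 125 w = 0 := by rw [← a1.1, co_p1]
  have a4 : w ∈ Sub dU8.VL := den_NN.1 (ndOK_sound perp_chk (mem_L1.2 a1.1) a0 fun u hu => by
    rw [a1.2 _ (Dat.q dF6_ok hu) (dF6_reg.good.loc _ ⟨le_rfl, cl_grp _, dF6_reg.prop⟩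
      ⟨_, dF6.le (dF6.u_mem hu), Dat.q dF6_ok hu, rfl⟩), a0])
  obtain ⟨a, ha⟩ := Set.ncard_eq_one.1 dU8_cnt
  have b1 : w ∈ ({a} : Set V) := ha ▸ ⟨a4, a2⟩
  have b2 : (0 : V) ∈ ({a} : Set V) := ha ▸ ⟨zero_mem _, 1, one_mem _, φ_one, Or.inl (by rw [act_one, p0_e0])⟩
  exact a3 (b1.trans b2.symm)

theorem sep_fam {i j : Fin 11} (h : i ≠ j) : Sep (cl (dat i).gH) (cl (dat j).gH) := by
  have h1 : ¬ Cj (Sub (dat i).VL) (Sub (dat j).VL) := fun c => by
    have a := c.le fun _ => (fam j).good.p1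
    have b := c.symm.le fun _ => (fam i).good.p1
    rw [(fam i).dim, (fam j).dim] at a b
    rcases (show ∀ i j : Fin 11, i ≠ j → dm i ≠ dm j ∨ (ct i ≠ 0 ∧ ct j ≠ 0 ∧ ct i ≠ ct j) ∨ (i = 3 ∧ j = 4) ∨
      (i = 4 ∧ j = 3) by decide) i j h with h | ⟨h1, h2, h3⟩ | ⟨rfl, rfl⟩ | ⟨rfl, rfl⟩
    · exact h (le_antisymm b.1 a.1)
    · rw [(fam i).cnt h1, (fam j).cnt h2] at a b
      exact h3 (le_antisymm b.2 a.2)
    · exact not_cj c.symm
    · exact not_cj c
  rcases (show ∀ i j : Fin 11, i ≠ j → sb i = true ∨ sb j = true by decide) i j h with h2 | h2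
  · exact sep_good (fam i).good (fam j).good ((fam i).small h2) (fam j).orb h1
  · exact (sep_good (fam j).good (fam i).good ((fam j).small h2) (fam i).orb fun c => h1 c.symm).symm

/-- the nineteen subgroups -/
noncomputable def HH : Fin Cfsg.Lie.chevE7.rank ⊕ Option (Fin 11) → Subgroup Γ
  | .inl i => PP i
  | .inr (some i) => cl (dat i).gH
  | .inr none => H19

theorem HH_prop : ∀ i, HH i ≤ grp ∧ ¬ grp ≤ HH i
  | .inl i => ⟨PP_le i, PP_prop i⟩
  | .inr (some i) => ⟨cl_grp _, (fam i).prop⟩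
  | .inr none => ⟨cl_grp _, prop19⟩

theorem HH_sep : ∀ i j, i ≠ j → Sep (HH i) (HH j)
  | .inl _, .inl _, h => sep_par fun e1 => h (congrArg _ e1)
  | .inl i, .inr (some j), _ => (sep_Q (fam j).good (Q_PP i)).symm
  | .inl i, .inr none, _ => big19.sep_par i
  | .inr (some i), .inl j, _ => sep_Q (fam i).good (Q_PP j)
  | .inr (some _), .inr (some _), h => sep_fam fun e1 => h (by rw [e1])
  | .inr (some i), .inr none, _ => (fam i).big
  | .inr none, .inl j, _ => (big19.sep_par j).symm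
  | .inr none, .inr (some j), _ => (fam j).big.symm
  | .inr none, .inr none, h => absurd rfl h

theorem exists_max : ∃ M : Fin 19 → Subgroup ↥grp, (∀ i, IsCoatom (M i)) ∧
    ∀ i j, (∃ g : ↥grp, (M i).map (MulAut.conj g).toMonoidHom = M j) → i = j := by
  have h : ∀ i, ∃ M : Subgroup grp, IsCoatom M ∧ (HH i).subgroupOf grp ≤ M := fun i =>
    (eq_top_or_exists_le_coatom _).resolve_left fun h => (HH_prop i).2 (Subgroup.subgroupOf_eq_top.1 h)
  choose M h1 h2 using h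
  let e1 : Fin 19 ≃ Fin Cfsg.Lie.chevE7.rank ⊕ Option (Fin 11) := (Fintype.equivFinOfCardEq (by
    rw [Fintype.card_sum, Fintype.card_option, Fintype.card_fin, Fintype.card_fin]; rfl)).symm
  refine ⟨fun i => M (e1 i), fun i => h1 _, fun i j ⟨g, hg⟩ => e1.injective ?_⟩
  by_contra hne
  refine HH_sep _ _ (Ne.symm hne) ((M (e1 j)).map grp.subtype) ⟨fun a ha => ⟨⟨a, (HH_prop _).1 ha⟩, h2 _ ha, rfl⟩,
    Subgroup.map_subtype_le _, fun h => (h1 (e1 j)).1 (eq_top_iff.2 fun a _ => ?_)⟩ g g.2 fun a ha => ?_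
  · obtain ⟨b, hb, e2⟩ := h a.2
    rwa [← Subtype.ext e2]
  · exact ⟨_, hg.le ⟨⟨a, (HH_prop _).1 ha⟩, h2 _ ha, rfl⟩, rfl⟩

end CfsgLib.E7M
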