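import Mathlib
import Cfsg.Agent.Lib.E7M.Chk
import Cfsg.Agent.Lib.ChevAut.RootCent
import Cfsg.Agent.Lib.RGD.Levi

/-!
# The centralizer `C = Q K` of the highest root involution of `E₇(2)` and its filtration of the adjoint module
-/

set_option autoImplicit false

namespace CfsgLib.E7M

open Cfsg.Lie CfsgLib.Comput CfsgLib.RGD
open CfsgLib.Chev hiding force force_eq ix allLt
open CfsgLib.Weyl hiding co allLt
open scoped Matrix

noncomputable abbrev S : StSys (rootSys rtOKE7) F2 Γ := stSys rtOKE7 F2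

theorem hS : S.Nondeg := stSys_nondeg rtOKE7

/-- the group -/
def grp : Subgroup Γ := chevE7.group F2

theorem grp_eq : S.grp = grp := stSys_grp rtOKE7

theorem x_mem (r : ℕ) : x r ∈ grp := xU_mem_group r 1

theorem wd_grp (l : List ℕ) : wd l ∈ grp := wd_mem fun r _ => x_mem r

/-- the subgroup generated by some root involutions -/
def gen (p : ℕ → Prop) : Subgroup Γ := Subgroup.closure {g | ∃ r < 126, p r ∧ g = x r}

theorem x_gen {p : ℕ → Prop} {r : ℕ} (hr : r < 126) (h : p r) : x r ∈ gen p := Subgroup.subset_closure ⟨r, hr, h, rfl⟩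

theorem gen_le {p : ℕ → Prop} {M : Subgroup Γ} (h : ∀ r < 126, p r → x r ∈ M) : gen p ≤ M := by
  rw [gen, Subgroup.closure_le]
  rintro _ ⟨r, hr, hp, rfl⟩
  exact h r hr hp

theorem gen_grp (p : ℕ → Prop) : gen p ≤ grp := gen_le fun r _ _ => x_mem r

theorem gen_ind {p : ℕ → Prop} {P : Γ → Prop} (h1 : P 1) (hx : ∀ r < 126, p r → ∀ g ∈ gen p, P g → P (x r * g))
    {g : Γ} (hg : g ∈ gen p) : P g := by
  induction hg using Subgroup.closure_induction_left with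
  | one => exact h1
  | mul_left a ha g hg ih =>
    obtain ⟨r, hr, hp, rfl⟩ := ha
    exact hx r hr hp g hg ih
  | inv_mul_cancel a ha g hg ih =>
    obtain ⟨r, hr, hp, rfl⟩ := ha
    rw [x_inv]
    exact hx r hr hp g hg ih

theorem UU_eq {Ψ : Set (Fin chevE7.nroots)} {p : ℕ → Prop} (h : ∀ r, r ∈ Ψ ↔ p r) : S.UU Ψ = gen p := by
  refine le_antisymm (S.UU_le_iff.2 fun r hr t => ?_) (gen_le fun r hr hp => S.x_mem_UU (r := ⟨r, hr⟩) ((h _).2 hp) 1)
  rcases f2 t with rfl | rfl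
  · rw [S.x_zero]; exact one_mem _
  · exact x_gen r.2 ((h r).1 hr)

theorem H_bot : S.H = ⊥ := by
  rw [eq_bot_iff, StSys.H, Subgroup.closure_le]
  rintro _ ⟨r, c, hc, rfl⟩
  rw [(f2 c).resolve_left hc, S.h_one]
  exact one_mem _

def U : Subgroup Γ := gen (63 ≤ ·)
def C : Subgroup Γ := gen (33 ≤ ·)
def Q : Subgroup Γ := gen (93 ≤ ·)
def K : Subgroup Γ := gen fun r => 33 ≤ r ∧ r ≤ 92

theorem pos_iff (r : Fin chevE7.nroots) : (rootSys rtOKE7).Pos r ↔ 63 ≤ (r : ℕ) := by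
  rw [rootSys_pos_iff, isPosRoot_iff]
  exact ⟨fun h => h.1, fun h => ⟨h, r.2⟩⟩

/-- the nodes of `D₆` -/
def J : Set (Fin chevE7.rank) := {j | (j : ℕ) ≠ 0}

theorem inSub_iff (r : Fin chevE7.nroots) : (rootSys rtOKE7).InSub J r ↔ 33 ≤ (r : ℕ) ∧ (r : ℕ) ≤ 92 := by
  have : ∀ r < 126, (rt chevE7 r 0 = 0 ↔ 33 ≤ r ∧ r ≤ 92) := by decide +kernel
  rw [← this r r.2]
  refine ⟨fun h => h ⟨0, by decide⟩ (by simp [J]), fun h j hj => ?_⟩
  rw [rootSys_rt, show (j : ℕ) = 0 by simpa [J] using hj, h]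

theorem U_eq : S.U = U := UU_eq pos_iff

theorem Q_eq : S.UJ J = Q := UU_eq fun r => by
  simp only [Set.mem_ofPred_eq, pos_iff, inSub_iff]; omega

theorem K_eq : S.LJ J = K := by
  rw [StSys.LJ, H_bot, bot_sup_eq]; exact UU_eq inSub_iff

theorem C_eq : S.P J = C := by
  rw [S.P_eq_H_sup_UU, H_bot, bot_sup_eq]
  exact UU_eq fun r => by simp only [Set.mem_ofPred_eq, pos_iff, inSub_iff]; omega

theorem U_le : U ≤ C := gen_le fun r hr h => x_gen hr (by omega)
theorem Q_le : Q ≤ C := gen_le fun r hr h => x_gen hr (by omega)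
theorem K_le : K ≤ C := gen_le fun _ hr h => x_gen hr h.1
theorem C_le : C ≤ grp := gen_grp _

theorem conj_Q {c q : Γ} (hc : c ∈ C) (hq : q ∈ Q) : c * q * c⁻¹ ∈ Q := by
  rw [← C_eq] at hc; rw [← Q_eq] at hq ⊢; exact S.P_conj_mem_UJ hc hq

theorem conj_Q' {c q : Γ} (hc : c ∈ C) (hq : q ∈ Q) : c⁻¹ * q * c ∈ Q := by
  simpa using conj_Q (inv_mem hc) hq

theorem levi {c : Γ} (hc : c ∈ C) : ∃ q ∈ Q, ∃ k ∈ K, c = q * k := by
  rw [← C_eq, S.mem_P_iff_mul, Q_eq, K_eq] at hc; exact hc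

theorem QK {q : Γ} (hq : q ∈ Q) (hk : q ∈ K) : q = 1 :=
  hS.eq_one_of_mem_UJ_of_mem_LJ (Q_eq ▸ hq) (K_eq ▸ hk)

theorem le_of_x_Q {r : ℕ} (hr : r < 126) (h : x r ∈ Q) : 93 ≤ r := by
  have := hS.mem_of_x_mem_UU (StSys.closed_UJ J) (fun _ h => h.1) (r := ⟨r, hr⟩) one_ne_zero
    (show _ ∈ S.UJ J from Q_eq ▸ h)
  simp only [Set.mem_ofPred_eq, pos_iff, inSub_iff] at this
  omega

noncomputable irreducible_def X : Γ := x 125
noncomputable irreducible_def Y : Γ := x 0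
irreducible_def eT : V := e 125
irreducible_def e0 : V := e 0
irreducible_def hT : V := dec hc

theorem X_Q : X ∈ Q := by rw [X_def]; exact x_gen (by norm_num) (by norm_num)
theorem XX : X * X = 1 := by rw [X_def]; exact x_mul_self _
theorem YY : Y * Y = 1 := by rw [Y_def]; exact x_mul_self _
theorem X_inv : X⁻¹ = X := inv_eq_of_mul_eq_one_right XX
theorem Y_inv : Y⁻¹ = Y := inv_eq_of_mul_eq_one_right YY
theorem X_grp : X ∈ grp := X_def ▸ x_mem _
theorem Y_grp : Y ∈ grp := Y_def ▸ x_mem _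

noncomputable irreducible_def p1 : E := den P1
noncomputable irreducible_def g1 : E := den G1
noncomputable irreducible_def g0 : E := den G0
noncomputable irreducible_def p0 : E := den P0

theorem dec_eT : dec tc = eT := by rw [eT_def, ← dec_pow (by norm_num)]; rfl
theorem dec_e0 : dec 1 = e0 := by rw [e0_def]; exact dec_pow (k := 0) (by norm_num)
theorem dec_hT : dec hc = hT := hT_def.symm

theorem den_w1 (r : ℕ) : den (.w [r]) = act (x r) := by rw [den_w, wd_one]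

theorem eqE_app {a b : Ex} (h : eqE a b = true) (v : V) : den a v = den b v := LinearMap.congr_fun (eqE_sound h) v

theorem eqW {l m : List ℕ} (h : eqE (.w l) (.w m) = true) : wd l = wd m := by
  have := eqE_sound h
  rw [den_w, den_w] at this
  exact act_inj this

theorem eqM {a b c : Ex} (h : eqE (.mul a b) c = true) (v : V) : den a (den b v) = den c v :=
  (den_mul a b v).symm.trans (eqE_app h v)

theorem pres_of {p a : Ex} (h : eqE (.mul p (.mul a p)) (.mul a p) = true) {v : V} (hv : den p v = v) :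
    den p (den a v) = den a v := by
  have := eqE_app h v
  rwa [den_mul, den_mul, hv] at this

/-- the filtration facts -/
structure CF (c : Γ) : Prop where
  t : act c eT = eT
  f1 : ∀ v, g1 v = v → g1 (act c v) = act c v
  f0 : ∀ v, g0 v = v → g0 (act c v) = act c v
  o : ∀ v, co 0 (act c v) = co 0 v
  h : g1 (act c hT + hT) = act c hT + hT
  x : c * X = X * c

theorem O0_apply (v : V) : den O0 v = co 0 v • e0 := by rw [O0, den_sp, sL_one, dec_e0]

theorem e_ne {k : ℕ} (hk : k < 133) : e k ≠ 0 := fun h => by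
  have := co_e (k := k) hk
  rw [h, map_zero, if_pos rfl] at this
  exact zero_ne_one this

theorem e0_ne : e0 ≠ 0 := e0_def ▸ e_ne (by norm_num)
theorem eT_ne : eT ≠ 0 := eT_def ▸ e_ne (by norm_num)

theorem cf_x {r : ℕ} (hp : 33 ≤ r) (hr : r < 126) : CF (x r) := by
  have h := aI_spec C_chk hp (by omega)
  simp only [cC, Bool.and_eq_true] at h
  obtain ⟨⟨⟨⟨⟨h1, h2⟩, h3⟩, h4⟩, h5⟩, h6⟩ := h
  refine ⟨?_, fun v hv => ?_, fun v hv => ?_, fun v => ?_, ?_, ?_⟩
  · have := vv_sound h1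
    rwa [den_w1, dec_eT] at this
  · rw [g1_def] at hv ⊢; rw [← den_w1]; exact pres_of h2 hv
  · rw [g0_def] at hv ⊢; rw [← den_w1]; exact pres_of h3 hv
  · have := eqE_app h4 v
    rw [den_mul, O0_apply, O0_apply, den_w1] at this
    exact smul_left_injective F2 e0_ne this
  · have := vv_sound h5
    rwa [dec_vv, den_mul, den_add, den_w1, den_one, dec_hT, ← g1_def] at this
  · have := eqW h6
    rwa [wd_cons, wd_one, wd_cons, wd_one, ← X_def] at this

theorem cf {c : Γ} (hc : c ∈ C) : CF c := by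
  refine gen_ind (P := CF) ⟨act_one _, fun v h => by rwa [act_one], fun v h => by rwa [act_one],
    fun v => by rw [act_one], by rw [act_one, two, map_zero], by simp⟩ (fun r hr hp g _ ih => ?_) hc
  have a := cf_x hp hr
  refine ⟨by rw [act_mul, ih.t, a.t], fun v hv => by rw [act_mul]; exact a.f1 _ (ih.f1 v hv),
    fun v hv => by rw [act_mul]; exact a.f0 _ (ih.f0 v hv), fun v => by rw [act_mul, a.o, ih.o], ?_, ?_⟩
  · have e1 : act (x r * g) hT + hT = act (x r) (act g hT + hT) + (act (x r) hT + hT) := by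
      rw [act_mul, map_add, add_assoc, ← add_assoc (act (x r) hT), two, zero_add]
    rw [e1, map_add, a.f1 _ ih.h, a.h]
  · rw [mul_assoc, ih.x, ← mul_assoc, a.x, mul_assoc]

theorem wd3 (a b c : ℕ) : wd [a, b, c] = x a * x b * x c := by rw [wd_cons, wd_cons, wd_one, mul_assoc]

theorem ids : (∀ v, g1 v = p1 v + co 125 v • eT) ∧ (∀ v, p1 (g1 v) = p1 v) ∧ (∀ v, g1 (p1 v) = p1 v) ∧
    (∀ v, p0 (g1 v) = 0) ∧ (∀ v, p1 (p1 v) = p1 v) ∧ p1 hT = 0 ∧ p0 hT = hT ∧ p1 eT = 0 ∧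
    act X e0 = e0 + hT + eT ∧ X * Y * X = Y * X * Y ∧ (∀ v, g1 v = v → co 0 (act (X * Y * X) v) = co 125 v) ∧
    act (X * Y * X) e0 = eT ∧ p0 e0 = 0 ∧ g1 eT = eT := by
  have h := id_chk
  simp only [Bool.and_eq_true] at h
  obtain ⟨⟨⟨⟨⟨⟨⟨⟨⟨⟨⟨⟨⟨h1, h2⟩, h3⟩, h4⟩, h5⟩, h6⟩, h7⟩, h8⟩, h9⟩, h10⟩, h11⟩, h12⟩, h13⟩, h14⟩ := h
  rw [g1_def, p1_def, p0_def, X_def, Y_def, ← dec_hT, ← dec_e0, ← dec_eT, ← wd3, ← wd3, ← den_w1, ← den_w]
  refine ⟨fun v => ?_, eqM h2, eqM h3, eqM h4, eqM h5, (vv_sound h6).trans dec_zero,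
    vv_sound h7, (vv_sound h8).trans dec_zero, ?_, eqW h10, fun v hv => ?_, vv_sound h12,
    (vv_sound h13).trans dec_zero, vv_sound h14⟩
  · rw [eqE_app h1 v, den_add, OT, den_sp, sL_one]
  · rw [vv_sound h9, dec_xor, dec_xor]
  · have := eqE_app h11 v
    rw [den_mul, den_mul, den_mul, hv, O0_apply, den_sp, sL_one, dec_e0] at this
    exact smul_left_injective F2 e0_ne this

theorem g1_eq (v : V) : g1 v = p1 v + co 125 v • eT := ids.1 v
theorem p1_g1 (v : V) : p1 (g1 v) = p1 v := ids.2.1 v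
theorem g1_p1 (v : V) : g1 (p1 v) = p1 v := ids.2.2.1 v
theorem p0_g1 (v : V) : p0 (g1 v) = 0 := ids.2.2.2.1 v
theorem p1_p1 (v : V) : p1 (p1 v) = p1 v := ids.2.2.2.2.1 v
theorem p1_hT : p1 hT = 0 := ids.2.2.2.2.2.1
theorem p0_hT : p0 hT = hT := ids.2.2.2.2.2.2.1
theorem p1_eT : p1 eT = 0 := ids.2.2.2.2.2.2.2.1
theorem X_e0 : act X e0 = e0 + hT + eT := ids.2.2.2.2.2.2.2.2.1
theorem braid : X * Y * X = Y * X * Y := ids.2.2.2.2.2.2.2.2.2.1
theorem co_n {v : V} (h : g1 v = v) : co 0 (act (X * Y * X) v) = co 125 v := ids.2.2.2.2.2.2.2.2.2.2.1 v h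
theorem n_e0 : act (X * Y * X) e0 = eT := ids.2.2.2.2.2.2.2.2.2.2.2.1
theorem p0_e0 : p0 e0 = 0 := ids.2.2.2.2.2.2.2.2.2.2.2.2.1
theorem g1_eT : g1 eT = eT := ids.2.2.2.2.2.2.2.2.2.2.2.2.2

theorem Q_x {r : ℕ} (h1 : 93 ≤ r) (h2 : r < 126) : (∀ v, g1 v = v → p1 (act (x r) v) = p1 v) ∧
    p1 (act (x r) hT) = p1 (e r) ∧ g1 (e r) = e r ∧ (p0 (act (x r) e0) = 0 ∨ p0 (act (x r) e0) = hT) := by
  have h := aI_spec Q_chk h1 (by omega)
  simp only [cQ, Bool.and_eq_true] at h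
  obtain ⟨⟨⟨a1, a2⟩, a3⟩, a4⟩ := h
  rw [g1_def, p1_def, p0_def, ← dec_hT, ← dec_e0, ← den_w1, ← dec_pow (show r < 133 by omega)]
  refine ⟨fun v hv => ?_, ?_, vv_sound a3, ?_⟩
  · have := eqE_app a1 v
    rwa [den_mul, den_mul, hv] at this
  · have := vv_sound a2
    rwa [dec_vv, den_mul] at this
  · have := vv_sound a4
    rw [den_mul] at this
    cases h : r == 125 <;> rw [h] at this
    exacts [Or.inl (this.trans dec_zero), Or.inr this]

theorem qf {q : Γ} (hq : q ∈ Q) : ∀ v, g1 v = v → p1 (act q v) = p1 v :=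
  gen_ind (P := fun q => ∀ v, g1 v = v → p1 (act q v) = p1 v) (fun v _ => by rw [act_one])
    (fun r hr hp g hg ih v hv => by rw [act_mul, (Q_x hp hr).1 _ ((cf (Q_le hg)).f1 v hv), ih v hv]) hq

theorem kf {k : Γ} (hk : k ∈ K) : act k e0 = e0 ∧ act k hT = hT ∧ ∀ v, p0 (act k v) = act k (p0 v) := by
  refine gen_ind (P := fun k => act k e0 = e0 ∧ act k hT = hT ∧ ∀ v, p0 (act k v) = act k (p0 v))
    ⟨act_one _, act_one _, fun v => by rw [act_one, act_one]⟩ (fun r _ hp g _ ih => ?_) hk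
  have h := aI_spec K_chk hp.1 (by omega)
  simp only [cK, Bool.and_eq_true] at h
  have a1 := vv_sound h.1.1
  have a2 := vv_sound h.1.2
  have a3 := eqE_app h.2
  simp only [den_mul, den_w1, dec_e0, dec_hT, ← p0_def] at a1 a2 a3
  exact ⟨by rw [act_mul, ih.1, a1], by rw [act_mul, ih.2.1, a2], fun v => by rw [act_mul, act_mul, a3, ih.2.2]⟩

/-- the map `Q → L₁` -/
noncomputable irreducible_def φ (q : Γ) : V := p1 (act q hT)

theorem p1_φ (q : Γ) : p1 (φ q) = φ q := by rw [φ_def, p1_p1]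

theorem g1_φ (q : Γ) : g1 (φ q) = φ q := by rw [φ_def, g1_p1]

theorem φ_eq (q : Γ) : φ q = p1 (act q hT + hT) := by rw [map_add, p1_hT, add_zero, φ_def]

theorem φ_one : φ 1 = 0 := by rw [φ_def, act_one, p1_hT]

theorem φ_mul {q q' : Γ} (hq : q ∈ Q) (hq' : q' ∈ Q) : φ (q * q') = φ q + φ q' := by
  rw [φ_eq q', ← qf hq _ (cf (Q_le hq')).h, φ_def, φ_def, act_mul, map_add, map_add, add_comm, add_assoc, two, add_zero]

theorem φ_x {r : ℕ} (h1 : 93 ≤ r) (h2 : r < 126) : φ (x r) = p1 (e r) := (φ_def _).trans (Q_x h1 h2).2.1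

theorem φ_X : φ X = 0 := by rw [X_def, φ_x (by norm_num) (by norm_num), ← eT_def, p1_eT]

theorem φ_inv {q : Γ} (hq : q ∈ Q) : φ q⁻¹ = φ q :=
  eq_of_add (by rw [← φ_mul (inv_mem hq) hq, inv_mul_cancel, φ_one])

theorem p1_act {c : Γ} (hc : c ∈ C) {v : V} (hv : g1 v = v) : p1 (act c (p1 v)) = p1 (act c v) := by
  conv_rhs => rw [← hv, g1_eq, map_add, map_add, map_smul, (cf hc).t, map_smul, p1_eT, smul_zero, add_zero]

theorem φ_conj {c q : Γ} (hc : c ∈ C) (hq : q ∈ Q) : φ (c * q * c⁻¹) = p1 (act c (φ q)) := by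
  have h1 := (cf (inv_mem hc)).h
  have h2 := (cf (Q_le hq)).h
  obtain ⟨y, hy⟩ : ∃ y, y = act c⁻¹ hT + hT := ⟨_, rfl⟩
  have h3 : act c y = hT + act c hT := by rw [hy, map_add, act_inv']
  have h4 : act c⁻¹ hT = hT + y := by rw [hy, add_comm (act c⁻¹ hT), ← add_assoc, two, zero_add]
  rw [← hy] at h1
  rw [φ_eq q, p1_act hc h2, φ_def, act_mul, act_mul, h4, map_add, map_add, map_add, map_add, map_add,
    ← p1_act hc ((cf (Q_le hq)).f1 _ h1), qf hq _ h1, p1_act hc h1, h3, map_add, p1_hT, zero_add]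

theorem φ_ker {q : Γ} (hq : q ∈ Q) (h : φ q = 0) : q = 1 ∨ q = X := by
  have h125 : 125 < chevE7.nroots := by decide
  obtain ⟨L, hL, hm⟩ := StSys.exists_list {r : Fin chevE7.nroots | (rootSys rtOKE7).Pos r ∧ ¬ (rootSys rtOKE7).InSub J r}
  obtain ⟨t, -, rfl⟩ := S.exists_xprod (StSys.closed_UJ J) (fun _ h => h.1) hL (fun r hr => (hm r).2 hr)
    (show q ∈ S.UJ J from Q_eq ▸ hq)
  have hm' : ∀ r : Fin chevE7.nroots, r ∈ L ↔ 93 ≤ (r : ℕ) := fun r => by
    simp only [hm, Set.mem_ofPred_eq, pos_iff, inSub_iff]; omega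
  have key : ∀ L' : List (Fin chevE7.nroots), (∀ r ∈ L', 93 ≤ (r : ℕ)) → S.xprod L' t ∈ Q ∧
      φ (S.xprod L' t) = p1 (L'.map fun r => t r • e r).sum := by
    intro L' h'
    induction L' with
    | nil => exact ⟨one_mem _, φ_one.trans (map_zero _).symm⟩
    | cons r L' ih =>
      obtain ⟨i1, i2⟩ := ih fun s hs => h' s (List.mem_cons_of_mem _ hs)
      have h3 := h' r List.mem_cons_self
      have : S.x r (t r) ∈ Q ∧ φ (S.x r (t r)) = p1 (t r • e r) := by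
        rcases f2 (t r) with h0 | h0 <;> rw [h0]
        · rw [S.x_zero, zero_smul, map_zero]; exact ⟨one_mem _, φ_one⟩
        · rw [one_smul]; exact ⟨x_gen r.2 h3, φ_x h3 r.2⟩
      rw [S.xprod_cons, φ_mul this.1 i1, this.2, i2, List.map_cons, List.sum_cons, map_add]
      exact ⟨mul_mem this.1 i1, rfl⟩
  have hco : ∀ s : Fin chevE7.nroots, s ∈ L → co s (L.map fun r => t r • e r).sum = t s := fun s hs => by
    have hs' : (s : ℕ) < 126 := s.2
    rw [map_list_sum, List.map_map, List.sum_map_eq_nsmul_single s, List.count_eq_one_of_mem hL hs, one_smul]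
    · simp [co_e (show (s : ℕ) < 133 by omega)]
    · intro r hr _
      simp [co_e (show (s : ℕ) < 133 by omega), Fin.val_inj, hr.symm]
  have hg : g1 (L.map fun r => t r • e r).sum = (L.map fun r => t r • e r).sum := by
    rw [map_list_sum, List.map_map]
    refine congrArg List.sum (List.map_congr_left fun r hr => ?_)
    rw [Function.comp, map_smul, (Q_x ((hm' r).1 hr) r.2).2.2.1]
  rw [(key L fun r hr => (hm' r).1 hr).2] at h
  rw [g1_eq, h, zero_add] at hg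
  have e1 : S.xprod L t = S.x ⟨125, h125⟩ (t ⟨125, h125⟩) := by
    rw [← S.xprod_single hL ((hm' ⟨125, h125⟩).2 (by norm_num))]
    refine S.xprod_congr fun r hr => ?_
    by_cases h5 : r = ⟨125, h125⟩
    · rw [h5]; simp
    · have hr' : (r : ℕ) < 126 := r.2
      rw [← hco r hr, ← hg, map_smul, eT_def, co_e (by omega), if_neg fun h => h5 (Fin.ext h), smul_zero]
      simp [h5]
  rw [e1]
  rcases f2 (t ⟨125, h125⟩) with h0 | h0 <;> rw [h0]
  exacts [Or.inl (S.x_zero _), Or.inr X_def.symm]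

theorem Q_pow {q : Γ} (hq : q ∈ Q) : q * q * (q * q) = 1 := by
  rcases φ_ker (mul_mem hq hq) (by rw [φ_mul hq hq, two]) with h | h <;> rw [h]
  exacts [one_mul 1, XX]

/-- the test for singular vectors -/
def T (u : Γ) : Prop := p0 (act u e0) = 0 ∨ p0 (act u e0) = hT

theorem T_mul {u : Γ} (hu : u ∈ C) (h : T u) : T (u * X) := by
  have : p0 (act (u * X) e0) = p0 (act u e0) + hT := by
    have h1 := p0_g1 (act u hT + hT)
    rw [(cf hu).h, map_add, p0_hT] at h1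
    rw [act_mul, X_e0, map_add, map_add, map_add, map_add, (cf hu).t, eq_of_add h1, ← g1_eT, p0_g1, add_zero]
  unfold T
  rw [this]
  rcases h with h | h <;> rw [h]
  exacts [Or.inr (zero_add _), Or.inl (two _)]

theorem T_of_φ {u u' : Γ} (hu : u ∈ Q) (hu' : u' ∈ Q) (e : φ u = φ u') (h : T u) : T u' := by
  rcases φ_ker (mul_mem (inv_mem hu) hu') (by rw [φ_mul (inv_mem hu) hu', φ_inv hu, e, two]) with h1 | h1
  · rwa [← inv_mul_eq_one.1 h1]
  · rw [eq_mul_of_inv_mul_eq h1]; exact T_mul (Q_le hu) h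

theorem T_conj {c u : Γ} (hc : c ∈ C) (hu : u ∈ Q) (h : T u) : T (c * u * c⁻¹) := by
  obtain ⟨q, hq, k, hk, rfl⟩ := levi hc
  have h1 : T (k * u * k⁻¹) := by
    unfold T
    rw [act_mul, act_mul, (kf (inv_mem hk)).1, (kf hk).2.2]
    rcases h with h | h <;> rw [h]
    exacts [Or.inl (map_zero _), Or.inr (kf hk).2.1]
  have h2 := conj_Q (K_le hk) hu
  refine T_of_φ h2 (conj_Q hc hu) ?_ h1
  rw [show q * k * u * (q * k)⁻¹ = q * (k * u * k⁻¹) * q⁻¹ by group, φ_conj (Q_le hq) h2, qf hq _ (g1_φ _), p1_φ]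

end CfsgLib.E7M
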