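import Mathlib
import Cfsg.Agent.Lib.E7M.Cert

/-!
# Root involutions in an overgroup of the normalizer of the torus `3⁷`
-/

set_option autoImplicit false

namespace CfsgLib.E7M

open Module CfsgLib.Comput

attribute [local irreducible] act

noncomputable def anyL {α : Type} (f : α → Bool) (l : List α) : Bool := List.rec false (fun a _ ih => Bool.rec ih true (f a)) l

theorem anyL_spec {α : Type} {f : α → Bool} {l : List α} (h : anyL f l = true) : ∃ a ∈ l, f a = true := by
  induction l with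
  | nil => exact absurd h Bool.false_ne_true
  | cons b l ih =>
    have h' : Bool.rec (anyL f l) true (f b) = true := h
    cases hb : f b <;> rw [hb] at h'
    · obtain ⟨a, ha, h1⟩ := ih h'
      exact ⟨a, List.mem_cons_of_mem _ ha, h1⟩
    · exact ⟨b, List.mem_cons_self, hb⟩

/-- a test for all vectors of an affine space -/
noncomputable def allE (f : ℕ → ℕ → Bool) (l : List ℕ) : ℕ → ℕ → Bool :=
  List.rec (fun y i => force y fun y => force i (f y))
    (fun c _ ih y i => Bool.rec false (ih (Nat.xor y c) (Nat.succ (Nat.mul 2 i))) (ih y (Nat.mul 2 i))) l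

theorem allE_sound {f : ℕ → ℕ → Bool} {F : SM} (h : allE f (cols F) 0 0 = true) {v : V} (hv : v ∈ Sub F) :
    ∃ y i, dec y = v ∧ f y i = true := by
  have key : ∀ (F : SM) y i, allE f (cols F) y i = true → ∀ v, ∃ y' i', dec y' = dec y + sL F v ∧ f y' i' = true := by
    intro F
    induction F with
    | nil => exact fun y i h v => ⟨y, i, (add_zero _).symm, by rwa [← force_eq i (f y), ← force_eq y fun y => force i (f y)]⟩
    | cons p F ih =>
      intro y i h v
      have h' : Bool.rec false (allE f (cols F) (y ^^^ p.2) (2 * i + 1)) (allE f (cols F) y (2 * i)) = true := h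
      cases h1 : allE f (cols F) y (2 * i) <;> rw [h1] at h'
      · exact absurd h' Bool.false_ne_true
      rw [sL_cons]
      rcases f2 (co (p.1 % 133) v) with h2 | h2 <;> rw [h2]
      · rw [zero_smul, zero_add]; exact ih _ _ h1 v
      · rw [one_smul, ← add_assoc, ← dec_xor]; exact ih _ _ h' v
  have := key F 0 0 h v
  rwa [dec_zero, zero_add, mem_Sub.1 hv] at this

/-- the code of the central vector -/
def zc : ℕ := 0x1480000000000000000000000000000000

theorem z_chk : aI 0 126 (fun r => Nat.beq (vv (.w [r]) zc) zc) = true := by decide +kernel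

theorem co0_dec (c : ℕ) : co 0 (dec c) = if c.testBit 0 then 1 else 0 := co_dec (by norm_num) c

/-- the vector is not a root vector -/
noncomputable def bad (y : ℕ) (w : List ℕ) : Bool := Nat.beq y 0 || Nat.beq y zc || force (vv (.w w) y) fun c =>
  c.testBit 0 && Nat.beq (vv (.mul P1 (.add (.w [125]) .one)) c) 0 && !Nat.beq (c % TT) 1 &&
    !Nat.beq (c % TT) (1 ^^^ hc ^^^ tc)

theorem bad_sound {y : ℕ} {w : List ℕ} (h : bad y w = true) {d : Γ} (a : Rt d (dec y)) : False := by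
  simp only [bad, force_eq, Bool.or_eq_true, Bool.and_eq_true, Nat.beq_eq, Bool.not_eq_true', ← Bool.not_eq_true] at h
  rcases h with (rfl | rfl) | ⟨⟨⟨h1, h2⟩, h3⟩, h4⟩
  · obtain ⟨g, -, -, h⟩ := a
    exact eT_ne (act_cancel (g := g) (by rw [← h, dec_zero, map_zero]))
  · obtain ⟨g, hg, -, h⟩ := a
    have h1 : grp ≤ stabS {dec zc} := grp_gen.le.trans (gen_le fun r hr _ v hv => by
      have := vv_sound (aI_spec z_chk r.zero_le (by omega))
      rwa [Set.mem_singleton_iff.1 hv, ← den_w1])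
    have h2 : act g⁻¹ (dec zc) = dec zc := h1 (inv_mem hg) _ rfl
    conv_lhs at h2 => rw [h, act_inv, ← dec_eT]
    exact dec_ne (by decide +kernel) h2
  · have b := a.conj (wd_grp w)
    rw [← den_w, ← dec_vv] at b
    obtain ⟨q, hq, -, h5⟩ := b.opp (by rw [co0_dec, if_pos h1])
    have h6 := congrArg dec h2
    rw [dec_vv, den_mul, den_add, den_w1, den_one, ← X_def, ← p1_def, dec_zero, h5, ← act_mul, ← (cf (Q_le hq)).x,
      act_mul, X_e0, map_add (act q), map_add (act q), (cf (Q_le hq)).t, add_comm, ← add_assoc, ← add_assoc, two, zero_add,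
      map_add, p1_eT, add_zero, ← φ_def] at h6
    rcases φ_ker hq h6 with rfl | rfl
    · exact dec_ne (by rwa [TT_eq] at h3) (h5.trans ((act_one _).trans dec_e0.symm))
    · refine dec_ne (y := 1 ^^^ hc ^^^ tc) ?_ (by rw [h5, X_e0, dec_xor, dec_xor, dec_e0, dec_hT, dec_eT])
      rwa [TT_eq, ← show (1 ^^^ hc ^^^ tc) % 2 ^ 133 = 1 ^^^ hc ^^^ tc by decide +kernel] at h4

/-- words in generators which are involutions -/
structure Ctx (H : Subgroup Γ) (E : List ℕ → Ex) (A : List ℕ → Γ) : Prop where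
  hg : H ≤ grp
  mem : ∀ k, A k ∈ H
  den : ∀ k, den (E k) = act (A k)
  nil : A [] = 1
  ap : ∀ k l, A (ap k l) = A k * A l
  rv : ∀ k, A (rv k) = (A k)⁻¹
  x0 : ∀ k, A (0 :: k) = X * A k
  x1 : ∀ k, A (1 :: k) = Y * A k

noncomputable def EE (gm : List (List ℕ × SM)) (k : List ℕ) : Ex :=
  List.rec .one (fun j _ ih => .mul (.add .one (.sp (nth ([], []) gm j).2)) ih) k

noncomputable def gmOK (gm : List (List ℕ × SM)) : Bool :=
  aL (fun p => eqE (.add .one (.sp p.2)) (.w p.1) && eqE (.mul (.add .one (.sp p.2)) (.add .one (.sp p.2))) .one) gm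

theorem inv_aux {s a b : Γ} (h : s * s = 1) : a⁻¹ * (s * b) = (s * a)⁻¹ * b := by
  rw [mul_inv_rev, show s⁻¹ = s from inv_eq_of_mul_eq_one_right h, mul_assoc]

theorem ctx_of {gm : List (List ℕ × SM)} {ex : List (List ℕ)} (h : gmOK gm = true)
    (h' : mp Prod.fst gm = [125] :: [0] :: ex) :
    Ctx (cl ([125] :: [0] :: ex)) (EE gm) fun k => wd (flat ([125] :: [0] :: ex) k) := by
  have hc : ∀ j k, wd (flat ([125] :: [0] :: ex) (j :: k)) =
      wd (nth [] ([125] :: [0] :: ex) j) * wd (flat ([125] :: [0] :: ex) k) := fun j k => wd_ap _ _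
  have h1 : ∀ j, den (.add .one (.sp (nth ([], []) gm j).2)) = act (wd (nth [] ([125] :: [0] :: ex) j)) ∧
      wd (nth [] ([125] :: [0] :: ex) j) * wd (nth [] ([125] :: [0] :: ex) j) = 1 := fun j => by
    rw [← h', mp_eq, nth_eq_getD [], show ([] : List ℕ) = (([], []) : List ℕ × SM).1 from rfl, List.getD_map,
      ← nth_eq_getD]
    rcases nth_mem_or ([], []) gm j with h2 | h2
    · have := aL_spec h _ h2
      rw [Bool.and_eq_true] at this
      have a1 := (eqE_sound this.1).trans (den_w _)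
      exact ⟨a1, act_inj (LinearMap.ext fun v => by rw [act_mul, ← a1, eqM this.2, act_one, den_one])⟩
    · rw [h2]
      exact ⟨LinearMap.ext fun v => (add_zero _).trans (act_one _).symm, mul_one _⟩
  have hap : ∀ k l, wd (flat ([125] :: [0] :: ex) (ap k l)) =
      wd (flat ([125] :: [0] :: ex) k) * wd (flat ([125] :: [0] :: ex) l) := fun k l => by
    induction k with
    | nil => exact (one_mul _).symm
    | cons j k ih => rw [hc, mul_assoc, ← ih]; exact hc _ _
  refine ⟨cl_grp _, flat_mem _, fun k => ?_, rfl, hap, fun k => ?_, fun k => (hc 0 k).trans ?_, fun k => (hc 1 k).trans ?_⟩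
  · induction k with
    | nil => exact (map_one act).symm
    | cons j k ih => rw [hc, map_mul, ← ih, ← (h1 j).1]; rfl
  · have key : ∀ m, wd (flat ([125] :: [0] :: ex) (List.rec (motive := fun _ => List ℕ → List ℕ) (fun m => m)
        (fun a _ ih m => ih (a :: m)) k m)) = (wd (flat ([125] :: [0] :: ex) k))⁻¹ * wd (flat ([125] :: [0] :: ex) m) := by
      induction k with
      | nil => exact fun m => by rw [show wd (flat _ []) = 1 from rfl, inv_one, one_mul]
      | cons a l ih =>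
        exact fun m => (ih _).trans (by
          rw [hc a m, hc a l]
          exact inv_aux (h1 a).2)
    exact (key []).trans (mul_one _)
  · rw [X_def, ← wd_one]; rfl
  · rw [Y_def, ← wd_one]; rfl

/-- root vectors whose involution commutes with every conjugate of `X` that is not opposite -/
def Ok (H : Subgroup Γ) (v : V) : Prop := (∀ h ∈ H, co 0 (act h v) = 0 → act X (act h v) = act h v) ∧ ∃ d, Rt d v

def T1 (w : V) : Prop := co 0 w = 0 ∧ co 0 (act (X * Y * X) w) = 1

noncomputable def τ (w : V) : F2 := co 0 w + co 0 (act (X * Y * X) w) + co 0 (act Y w)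

theorem co_Y {w : V} (h : act X w = w) : co 0 (act Y w) = co 0 (act (X * Y * X) w) := by
  rw [act_mul, act_mul, h, (cf (Q_le X_Q)).o]

def nk (k : List ℕ) : List ℕ := 0 :: 1 :: 0 :: k

section
variable (E : List ℕ → Ex)

noncomputable def same (k l : List ℕ) : Bool := Nat.beq (vv (E (rv k)) tc) (vv (E (rv l)) tc)
noncomputable def tr (k c : List ℕ) : Bool := same E k c && (same E (nk k) (nk c) || same E (nk k) (1 :: c))
noncomputable def exc (k g : List ℕ) : Bool :=
  same E (ap g (ap (rv k) (0 :: 1 :: k))) (nk g) || same E (ap g (ap (rv k) (0 :: 1 :: k))) (1 :: g)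
noncomputable def refOK (gs ctx : List (List ℕ)) (h : List ℕ) : Bool := aL (fun g => anyL (tr E (ap g h)) ctx) gs
noncomputable def stepK (gs gs' : List (List ℕ)) (p : List ℕ × List ℕ × List ℕ × List ℕ) : Bool :=
  anyL (exc E p.1) gs && refOK E gs' (p.1 :: gs) p.2.1 && refOK E gs' (nk p.1 :: gs) p.2.2.1 &&
    refOK E gs' ((1 :: p.1) :: gs) p.2.2.2
noncomputable def tE (k : List ℕ) : Ex := .mul (.mul O0 (.add (.add .one (.w [125, 0, 125])) (.w [0]))) (E k)
noncomputable def rel (l m : List (List ℕ)) : Bool :=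
  Nat.beq (Nat.mod (lenL l) 2) 1 && eqE (sm (mp (tE E) l)) (sm (mp (tE E) m))
noncomputable def levelOK (gs gs' : List (List ℕ)) (ps : List (List ℕ × List ℕ × List ℕ × List ℕ))
    (sub : List (List ℕ)) : Bool :=
  aL (stepK E gs gs') ps && rel E (mp Prod.fst ps) sub && aL (fun g => anyL (g == ·) gs) sub
noncomputable def lf (r : ℕ) (l : List (List ℕ × SM)) : Ex :=
  sm (mp (fun p => .mul (.sp p.2) (.mul (.add (.w [r]) .one) (E p.1))) l)
noncomputable def baseOK (l : List (List ℕ × SM)) (F : SM) (cs : List (List ℕ)) : Bool := eqE (NN F) (lf E 125 l) &&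
  allE (fun y i => anyL (fun p => !(vv (E (nk p.1)) y).testBit 0) l || bad y (nth [] cs i)) (cols F) 0 0
noncomputable def cartOK (l : List (List ℕ × ℕ)) (fr F : SM) (cs : List (List ℕ)) : Bool :=
  eqE (.sp fr) (.mul O0 (.add .one (.w [125, 0, 125]))) &&
  eqE (NN F) (sm (mp (fun p => .mul (.sp [(0, p.2)]) (.mul (.sp fr) (E p.1))) l)) &&
  allE (fun y i => bad y (nth [] cs i)) (cols F) 0 0
noncomputable def zr (b k : List ℕ) (c : List ℕ × List ℕ) : Bool :=
  tr E c.1 [] && tr E c.2 [] && rel E [k, ap b c.1, ap b c.2] []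
noncomputable def finOK (k : List ℕ) (Y0 : SM) (l : List (List ℕ × SM × SM)) (F : SM) (cs : List (List ℕ)) : Bool :=
  aL (fun p => tr E p.1 []) l &&
  eqE (NN F) (.add (lf E 125 (([], Y0) :: mp (fun p => (ap k p.1, p.2.1)) l)) (lf E 0 (mp (fun p => (ap k p.1, p.2.2)) l))) &&
  allE (fun y i => Nat.beq y tc || !(vv (.w [125, 0, 125]) y).testBit 0 || bad y (nth [] cs i)) (cols F) 0 0

end

/-- no vector has the first type at all these places -/
def NK (H : Subgroup Γ) (A : List ℕ → Γ) (gs : List (List ℕ)) : Prop :=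
  ∀ v, Ok H v → (∀ g ∈ gs, T1 (act (A g) v)) → False

theorem den_n : den (.w [125, 0, 125]) = act (X * Y * X) := by rw [den_w, wd3, ← X_def, ← Y_def]

section
variable {H : Subgroup Γ} {E : List ℕ → Ex} {A : List ℕ → Γ} (c : Ctx H E A)
include c

theorem Ctx.X_mem : X ∈ H := by have := c.mem [0]; rwa [c.x0, c.nil, mul_one] at this
theorem Ctx.Y_mem : Y ∈ H := by have := c.mem [1]; rwa [c.x1, c.nil, mul_one] at this
theorem Ctx.nk (k : List ℕ) (v : V) : act (A (nk k)) v = act (X * Y * X) (act (A k) v) := by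
  rw [E7M.nk, c.x0, c.x1, c.x0, ← mul_assoc, ← mul_assoc, act_mul]

theorem Ctx.ok {v : V} (o : Ok H v) {h : Γ} (hh : h ∈ H) : Ok H (act h v) :=
  ⟨fun g hg => by rw [← act_mul]; exact o.1 _ (mul_mem hg hh), o.2.elim fun _ a => ⟨_, a.conj (c.hg hh)⟩⟩

omit c in
theorem Ok.fix {v : V} (o : Ok H v) (h : co 0 v = 0) : act X v = v := by
  have := o.1 1 (one_mem _)
  rw [act_one] at this
  exact this h

theorem Ctx.tri {w : V} (o : Ok H w) (h : τ w = 0) :
    (act X w = w ∧ act Y w = w) ∨ T1 w ∨ T1 (act (X * Y * X) w) ∨ T1 (act Y w) := by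
  have h1 : act (X * Y * X) (act (X * Y * X) w) = w := by rw [← act_mul, nn, act_one]
  have h2 : co 0 (act (X * Y * X) (act Y w)) = co 0 (act (X * Y * X) w) := by
    rw [← act_mul, braid, mul_assoc _ Y Y, YY, mul_one, ← braid, mul_assoc X, act_mul X, (cf (Q_le X_Q)).o]
  unfold T1
  rw [h1, h2]
  rcases f2 (co 0 w) with a | a <;> rcases f2 (co 0 (act (X * Y * X) w)) with b | b
  · have := (c.ok o (mul_mem (mul_mem c.X_mem c.Y_mem) c.X_mem)).fix b
    refine Or.inl ⟨o.fix a, ?_⟩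
    rw [← n_X, n_inv, act_mul, act_mul, this, h1]
  · exact Or.inr (Or.inl ⟨a, b⟩)
  · exact Or.inr (Or.inr (Or.inl ⟨b, a⟩))
  · rw [τ, a, b, show (1 + 1 : F2) = 0 from rfl, zero_add] at h
    exact Or.inr (Or.inr (Or.inr ⟨h, b⟩))

theorem Ctx.same {k l : List ℕ} (h : same E k l = true) (v : V) : co 0 (act (A k) v) = co 0 (act (A l) v) := by
  have h1 := vv_sound h
  rw [dec_vv, c.den, c.den, c.rv, c.rv, dec_eT] at h1
  have h2 := (cf (C_of_fix (mul_mem (c.hg (c.mem l)) (inv_mem (c.hg (c.mem k)))) (by rw [act_mul, h1, act_inv']))).o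
    (act (A k) v)
  rw [act_mul, act_inv] at h2
  exact h2.symm

theorem Ctx.alt {v : V} (o : Ok H v) {k g : List ℕ} (h : (E7M.same E k (E7M.nk g) || E7M.same E k (1 :: g)) = true)
    (t : T1 (act (A g) v)) : co 0 (act (A k) v) = 1 := by
  rcases Bool.or_eq_true_iff.1 h with h | h <;> rw [c.same h]
  · rw [c.nk, t.2]
  · rw [c.x1, act_mul, co_Y ((c.ok o (c.mem g)).fix t.1), t.2]

theorem Ctx.tr {v : V} (o : Ok H v) {k g : List ℕ} (h : tr E k g = true) (t : T1 (act (A g) v)) : T1 (act (A k) v) := by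
  rw [E7M.tr, Bool.and_eq_true] at h
  exact ⟨(c.same h.1 v).trans t.1, by rw [← c.nk]; exact c.alt o h.2 t⟩

theorem Ctx.ref {gs ctx : List (List ℕ)} (n : NK H A gs) {k : List ℕ} (h : refOK E gs ctx k = true) {v : V} (o : Ok H v)
    (t : ∀ g ∈ ctx, T1 (act (A g) v)) : False :=
  n _ (c.ok o (c.mem k)) fun g hg => by
    obtain ⟨a, ha, h1⟩ := anyL_spec (aL_spec h g hg)
    rw [← act_mul, ← c.ap]
    exact c.tr o h1 (t a ha)

theorem Ctx.step {gs gs' : List (List ℕ)} (n : NK H A gs') {p : List ℕ × List ℕ × List ℕ × List ℕ}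
    (h : stepK E gs gs' p = true) {v : V} (o : Ok H v) (t : ∀ g ∈ gs, T1 (act (A g) v)) : τ (act (A p.1) v) = 1 := by
  simp only [stepK, Bool.and_eq_true] at h
  obtain ⟨⟨⟨h1, h2⟩, h3⟩, h4⟩ := h
  refine (f2 _).resolve_left fun h0 => ?_
  rcases c.tri (c.ok o (c.mem _)) h0 with ⟨a, b⟩ | a | a | a
  · obtain ⟨g, hg, h5⟩ := anyL_spec h1
    have := c.alt o h5 (t g hg)
    rw [c.ap, c.ap, c.rv, c.x0, c.x1, act_mul, act_mul, act_mul, act_mul, b, a, act_inv, (t g hg).1] at this
    exact zero_ne_one this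
  · exact c.ref n h2 o (List.forall_mem_cons.2 ⟨a, t⟩)
  · exact c.ref n h3 o (List.forall_mem_cons.2 ⟨by rwa [c.nk], t⟩)
  · exact c.ref n h4 o (List.forall_mem_cons.2 ⟨by rwa [c.x1, act_mul], t⟩)

theorem Ctx.tE (k : List ℕ) (v : V) : E7M.den (tE E k) v = τ (act (A k) v) • e0 := by
  rw [E7M.tE, den_mul, den_mul, O0_apply, den_add, den_add, den_one, den_n, den_w1, ← Y_def, c.den, map_add, map_add, τ]

theorem Ctx.rel {l m : List (List ℕ)} (h : rel E l m = true) {v : V} (h1 : ∀ k ∈ l, τ (act (A k) v) = 1)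
    (h2 : ∀ k ∈ m, τ (act (A k) v) = 0) : False := by
  rw [E7M.rel, Bool.and_eq_true, Nat.beq_eq, lenL_eq] at h
  have h3 : E7M.den (sm (mp (E7M.tE E) l)) v = (l.length : F2) • e0 := by
    clear h
    induction l with
    | nil => exact (zero_smul F2 e0).symm
    | cons k l ih =>
      refine (den_add _ _ v).trans ?_
      rw [c.tE, h1 k List.mem_cons_self, List.length_cons, Nat.cast_succ, add_smul, add_comm,
        ← ih fun k hk => h1 k (List.mem_cons_of_mem _ hk)]
      rfl
  rw [eqE_app h.2, sm_zero fun a ha => by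
    obtain ⟨k, hk, rfl⟩ := mem_mp ha
    rw [c.tE, h2 k hk, zero_smul], ← ZMod.natCast_mod, show l.length % 2 = 1 from h.1, Nat.cast_one, one_smul] at h3
  exact e0_ne h3.symm

theorem Ctx.level {gs gs' sub : List (List ℕ)} (n : NK H A gs') {ps : List (List ℕ × List ℕ × List ℕ × List ℕ)}
    (h : levelOK E gs gs' ps sub = true) : NK H A gs := fun v o t => by
  simp only [levelOK, Bool.and_eq_true] at h
  refine c.rel (v := v) h.1.2 (fun k hk => ?_) fun k hk => ?_
  · obtain ⟨p, hp, rfl⟩ := mem_mp hk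
    exact c.step n (aL_spec h.1.1 p hp) o t
  · obtain ⟨g, hg, h1⟩ := anyL_spec (aL_spec h.2 k hk)
    rw [beq_iff_eq.1 h1, τ, co_Y ((c.ok o (c.mem g)).fix (t g hg).1), (t g hg).1, (t g hg).2]
    rfl

theorem Ctx.lf {r : ℕ} {l : List (List ℕ × SM)} {v : V} (h : ∀ p ∈ l, act (x r) (act (A p.1) v) = act (A p.1) v) :
    E7M.den (lf E r l) v = 0 := sm_zero fun a ha => by
  obtain ⟨p, hp, rfl⟩ := mem_mp ha
  rw [den_mul, den_mul, den_add, den_w1, den_one, c.den, h p hp, two, map_zero]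

omit c in
theorem bit0 {a : Ex} {y : ℕ} (h : (!(vv a y).testBit 0) = true) : co 0 (den a (dec y)) = 0 := by
  rw [← dec_vv, co0_dec, if_neg (by simpa using h)]

theorem Ctx.base {l : List (List ℕ × SM)} {F : SM} {cs : List (List ℕ)} (h : baseOK E l F cs = true) :
    NK H A (mp Prod.fst l) := fun v o t => by
  rw [baseOK, Bool.and_eq_true] at h
  have t' : ∀ p ∈ l, T1 (act (A p.1) v) := fun p hp => t _ (mp_eq Prod.fst l ▸ List.mem_map_of_mem hp)
  obtain ⟨y, i, rfl, h1⟩ := allE_sound h.2 (den_NN.1 ((eqE_app h.1 v).trans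
    (c.lf fun p hp => X_def ▸ (c.ok o (c.mem _)).fix (t' p hp).1)))
  rcases Bool.or_eq_true_iff.1 h1 with h1 | h1
  · obtain ⟨p, hp, h2⟩ := anyL_spec h1
    have := bit0 h2
    rw [c.den, c.nk, (t' p hp).2] at this
    exact one_ne_zero this
  · exact o.2.elim fun _ => bad_sound h1

theorem Ctx.cart {l : List (List ℕ × ℕ)} {fr F : SM} {cs : List (List ℕ)} (h : cartOK E l fr F cs = true) {v : V}
    (o : Ok H v) : ∃ g ∈ H, T1 (act g v) := by
  simp only [cartOK, Bool.and_eq_true] at h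
  by_contra h0
  obtain ⟨y, i, rfl, h1⟩ := allE_sound h.2 (den_NN.1 ((eqE_app h.1.2 v).trans (sm_zero fun a ha => by
    obtain ⟨p, -, rfl⟩ := mem_mp ha
    have h2 : co 0 (act (A p.1) v) + co 0 (act (X * Y * X) (act (A p.1) v)) = 0 := by
      rcases f2 (co 0 (act (A p.1) v)) with a | a <;> rcases f2 (co 0 (act (X * Y * X) (act (A p.1) v))) with b | b
      · rw [a, b, add_zero]
      · exact absurd ⟨_, c.mem _, a, b⟩ h0
      · exact absurd ⟨_, c.mem (E7M.nk p.1), by rw [c.nk]; exact b,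
          by rw [c.nk, ← act_mul (X * Y * X) (X * Y * X), nn, act_one]; exact a⟩ h0
      · rw [a, b]; rfl
    rw [den_mul, den_mul, eqE_app h.1.1, den_mul, O0_apply, den_add, den_one, den_n, c.den, map_add, h2, zero_smul,
      map_zero])))
  exact o.2.elim fun _ => bad_sound h1

theorem Ctx.main {gs : List (List ℕ)} (n : NK H A gs) {p : List ℕ × List ℕ × List ℕ × List ℕ} {k : List ℕ}
    {z1 z2 z3 z4 : List ℕ × List ℕ} {Y0 F : SM} {l : List (List ℕ × SM × SM)} {cs : List (List ℕ)}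
    (h : (stepK E [[]] gs p && zr E p.1 k z1 && zr E p.1 (E7M.ap p.1 k) z2 && zr E p.1 (E7M.ap p.1 (E7M.nk k)) z3 &&
      zr E p.1 (E7M.ap p.1 (1 :: k)) z4 && finOK E k Y0 l F cs) = true) {v : V} (o : Ok H v) (t : T1 v) : v = eT := by
  simp only [finOK, Bool.and_eq_true] at h
  obtain ⟨⟨⟨⟨⟨h1, h2⟩, h3⟩, h4⟩, h5⟩, ⟨h6, h7⟩, h8⟩ := h
  have nil : ∀ v, act (A []) v = v := fun v => by rw [c.nil, act_one]
  have adj : ∀ v, Ok H v → ∀ g, T1 (act (A g) v) → τ (act (A (E7M.ap p.1 g)) v) = 1 := fun v o g t => by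
    rw [c.ap, act_mul]
    exact c.step n h1 (c.ok o (c.mem g)) fun g hg => by rwa [List.mem_singleton.1 hg, nil]
  have hz : ∀ v, Ok H v → T1 v → ∀ k z, zr E p.1 k z = true → τ (act (A k) v) = 1 → False := fun v o t k z h h' => by
    simp only [zr, Bool.and_eq_true] at h
    refine c.rel (v := v) h.2 (fun k hk => ?_) fun _ hk => absurd hk List.not_mem_nil
    simp only [List.mem_cons, List.not_mem_nil, or_false] at hk
    rcases hk with rfl | rfl | rfl
    exacts [h', adj v o _ (c.tr o h.1.1 (by rwa [nil])), adj v o _ (c.tr o h.1.2 (by rwa [nil]))]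
  have hk : ∀ v, Ok H v → T1 v → act X (act (A k) v) = act (A k) v ∧ act Y (act (A k) v) = act (A k) v := fun v o t => by
    rcases c.tri (c.ok o (c.mem k)) ((f2 _).resolve_right (hz v o t _ _ h2)) with a | a | a | a
    · exact a
    · exact (hz v o t _ _ h3 (adj v o _ a)).elim
    · exact (hz v o t _ _ h4 (adj v o _ (by rwa [c.nk]))).elim
    · exact (hz v o t _ _ h5 (adj v o _ (by rwa [c.x1, act_mul]))).elim
  have hl := fun q hq => hk _ (c.ok o (c.mem _)) (c.tr o (aL_spec h6 q hq) (by rwa [nil]))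
  obtain ⟨y, i, rfl, h9⟩ := allE_sound h8 (den_NN.1 ((eqE_app h7 v).trans (by
    rw [den_add, c.lf, c.lf, add_zero]
    · intro a ha
      obtain ⟨q, hq, rfl⟩ := mem_mp ha
      rw [← Y_def, c.ap, act_mul]; exact (hl q hq).2
    · intro a ha
      rcases List.mem_cons.1 ha with rfl | ha
      · rw [← X_def, nil]; exact o.fix t.1
      obtain ⟨q, hq, rfl⟩ := mem_mp ha
      rw [← X_def, c.ap, act_mul]; exact (hl q hq).1)))
  simp only [Bool.or_eq_true, Nat.beq_eq] at h9
  rcases h9 with (rfl | h9) | h9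
  · exact dec_eT
  · exact absurd ((den_n ▸ bit0 h9).symm.trans t.2) zero_ne_one
  · exact o.2.elim fun _ a => (bad_sound h9 a).elim

end

theorem ok_of {N H M : Subgroup Γ} (G : Good N H (Sub [])) (o : Ov H M) {d : Γ} {v : V} (a : Rt d v) (hd : d ∈ M) :
    Ok H v := by
  refine ⟨fun h hh h0 => ?_, d, a⟩
  have b := a.conj (G.hg hh)
  have hM : h * d * h⁻¹ ∈ M := mul_mem (mul_mem (o.1 hh) hd) (inv_mem (o.1 hh))
  generalize h * d * h⁻¹ = d' at b hM
  refine (b.fix_iff X_grp).2 ((b.nopp h0).resolve_right fun ⟨⟨w, a1⟩, a2, _⟩ => ?_)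
  have hX := G.NM o G.hX
  have a3 := mem_Sub.1 (G.loc M o ⟨_, mul_mem (mul_mem (mul_mem hX hM) hX) hM, a2, rfl⟩)
  rcases φ_ker a2 (a3.symm.trans rfl) with a4 | a4
  · exact a1.ne_one a4
  · refine rt_X.ne_one ?_
    rw [show X = d'⁻¹ * (X⁻¹ * (X * d' * X * d')) * d'⁻¹ by group, a4, inv_mul_cancel, mul_one, ← mul_inv_rev, b.sq, inv_one]

end CfsgLib.E7M
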